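import Mathlib
import Cfsg.Agent.H948.UProd

/-!
# S3677, unitary groups: isometries commuting with an element of order `r`, `-q` of order `n` modulo `r` (helper157)

`V` a nondegenerate hermitian space of dimension `n` over `F`, `|F| = q²`, `x` an isometry of prime order `r`, where `-q`
has order `n ≥ 2` modulo `r`.

* `le_finrank` : nondegenerate spaces with an isometry of order `r` have dimension at least `n`;
* `eq_zero_of_fix` : `x` has no fixed vectors;
* `dvd_finrank` : the dimension of an `x`-invariant subspace is divisible by the order of `q²` modulo `r`;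
* `dich` : for `y` commuting with `x`, with squarefree minimal polynomial: the minimal polynomial is irreducible, or
  `n` is even and `V = ker P(y) ⊕ ker R(y)`, both totally isotropic of dimension `n / 2`, `P` irreducible.
-/

set_option autoImplicit false
set_option linter.unusedSectionVars false

namespace Cfsg.Agent.H157.CS

open Cfsg Cfsg.Agent.H948.UBase Cfsg.Agent.LieClassical.HermBasic Module Polynomial

section

variable {F : Type*} [Field F] [Fintype F] {q : ℕ} {hF : Fintype.card F = q ^ 2}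

/-- `r ∣ ph q i` means `(-q) ^ (i + 1) = 1` -/
theorem neg_pow_of_dvd {r i : ℕ} (hq : 1 ≤ q) (h : r ∣ H948.UProd.ph q i) : (-(q : ZMod r)) ^ (i + 1) = 1 := by
  have h1 := (ZMod.natCast_eq_zero_iff _ _).2 h
  unfold H948.UProd.ph at h1
  rcases Nat.even_or_odd i with hi | hi
  · rw [if_pos hi] at h1
    rw [hi.add_one.neg_pow]
    push_cast at h1
    linear_combination -h1
  · rw [if_neg (Nat.not_even_iff_odd.2 hi), Nat.cast_sub (Nat.one_le_pow _ _ hq)] at h1
    rw [hi.add_one.neg_pow]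
    push_cast at h1
    linear_combination h1

end

variable {F : Type*} [Field F] [Fintype F] {q : ℕ} {hF : Fintype.card F = q ^ 2} {V : Type*} [AddCommGroup V]
  [Module F V] [FiniteDimensional F V] {B : V →ₛₗ[cj hF] V →ₗ[F] F}

/-- **Isometries of order `r`.** -/
theorem le_finrank (hB : IsHerm hF B) {r n : ℕ} (hr : r.Prime) (hrq : ¬ r ∣ q) (ho : orderOf (-(q : ZMod r)) = n)
    (hn : 2 ≤ n) {T : Module.End F V} (hT : Iso B T) (hTr : T ^ r = 1) (hT1 : T ≠ 1) : n ≤ finrank F V := by
  have hq : 1 ≤ q := by have := two_le hF; omega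
  have hrq1 : ¬ r ∣ q + 1 := by
    intro h
    have h3 : ((q + 1 : ℕ) : ZMod r) = 0 := (ZMod.natCast_eq_zero_iff _ _).2 h
    push_cast at h3
    have h4 : (-(q : ZMod r)) = 1 := by rw [neg_eq_iff_add_eq_zero, ← h3]
    rw [h4, orderOf_one] at ho
    omega
  have hdet : LinearMap.det T = 1 := by
    have h1 : LinearMap.det T ^ r = 1 := by rw [← map_pow, hTr, map_one]
    have h2 := det_norm hB hT
    have h3 : orderOf (LinearMap.det T) ∣ 1 := by
      have h4 : Nat.Coprime r (q + 1) := (Nat.Prime.coprime_iff_not_dvd hr).2 hrq1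
      rw [← h4]
      exact Nat.dvd_gcd (orderOf_dvd_of_pow_eq_one h1) (orderOf_dvd_of_pow_eq_one h2)
    exact orderOf_eq_one_iff.1 (Nat.dvd_one.1 h3)
  obtain ⟨e, he⟩ := exists_coord hB rfl
  set g := suHom e he ⟨T, hT, hdet⟩ with hg
  have hgr : g ^ r = 1 := by
    rw [hg, ← map_pow]
    have : (⟨T, hT, hdet⟩ : isoM B) ^ r = 1 := Subtype.ext (by simpa using hTr)
    rw [this, map_one]
  have hg1 : g ≠ 1 := by
    intro h
    apply hT1
    ext v
    have h1 := act_toSU e he T hT hdet (e v)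
    have h2 : toSU e he T hT hdet = 1 := h
    rw [h2, LieClassical.HermSiegel.act_one, LinearEquiv.symm_apply_apply] at h1
    exact (e.injective h1).symm
  have hgo : orderOf g = r := by
    have := Fact.mk hr
    exact orderOf_eq_prime hgr hg1
  have hd : r ∣ Nat.card (SU (finrank F V) F q) := by
    rw [← hgo]
    exact orderOf_dvd_natCard g
  rcases Nat.eq_zero_or_pos (finrank F V) with h0 | h0
  · exfalso
    apply hT1
    have := Module.finrank_zero_iff.1 h0
    ext v
    exact Subsingleton.elim _ _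
  rw [H948.UProd.card_SU hF h0, hr.dvd_mul] at hd
  rcases hd with hd | hd
  · exact absurd (hr.dvd_of_dvd_pow hd) hrq
  · rw [Prime.dvd_finsetProd_iff hr.prime] at hd
    obtain ⟨i, hi, hd⟩ := hd
    have h1 := neg_pow_of_dvd hq hd
    have h2 : n ∣ i + 1 + 1 := ho ▸ orderOf_dvd_of_pow_eq_one h1
    have h3 := Nat.le_of_dvd (by omega) h2
    rw [Finset.mem_range] at hi
    omega

/-- the restriction to a nondegenerate subspace -/
theorem isHerm_restrict (hB : IsHerm hF B) {W : Submodule F V}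
    (hW : ∀ w ∈ W, (∀ u ∈ W, B w u = 0) → w = 0) : IsHerm hF (B.domRestrict₁₂ W W) :=
  ⟨⟨fun x y => hB.symm.eq x y⟩, fun x h => Subtype.ext (hW x x.2 fun u hu => h ⟨u, hu⟩)⟩

/-- **Isometries of order `r` of nondegenerate subspaces.** -/
theorem le_finrank_sub (hB : IsHerm hF B) {r n : ℕ} (hr : r.Prime) (hrq : ¬ r ∣ q) (ho : orderOf (-(q : ZMod r)) = n)
    (hn : 2 ≤ n) {T : Module.End F V} (hT : Iso B T) (hTr : T ^ r = 1) {W : Submodule F V}
    (hTW : ∀ w ∈ W, T w ∈ W) (hW : ∀ w ∈ W, (∀ u ∈ W, B w u = 0) → w = 0) (h1 : ∃ w ∈ W, T w ≠ w) :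
    n ≤ finrank F W := by
  refine le_finrank (isHerm_restrict hB hW) hr hrq ho hn (T := T.restrict hTW) (fun x y => hT x y) ?_ ?_
  · rw [Module.End.pow_restrict r hTW]
    ext w
    change (T ^ r) (w : V) = w
    rw [hTr]
    rfl
  · intro h
    obtain ⟨w, hw, hne⟩ := h1
    exact hne (congrArg Subtype.val (LinearMap.congr_fun h ⟨w, hw⟩))

/-- powers of `1 + N` on a vector killed by `N²` -/
theorem pow_apply_of_sq {T : Module.End F V} {v w : V} (h1 : T v = v + w) (h2 : T w = w) (k : ℕ) :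
    (T ^ k) v = v + (k : F) • w := by
  induction k with
  | zero => simp
  | succ k ih =>
    have h3 : (T ^ (k + 1)) v = T ((T ^ k) v) := by rw [pow_succ']; rfl
    rw [h3, ih, map_add, map_smul, h1, h2]
    push_cast
    rw [add_smul, one_smul]
    abel

/-- `r ≠ 0` in `F` -/
theorem cast_ne_zero (hF : Fintype.card F = q ^ 2) {r : ℕ} (hr : r.Prime) (hrq : ¬ r ∣ q) : (r : F) ≠ 0 := by
  intro h0
  apply hrq
  have h2 := (ringChar.spec F r).1 h0
  have h3 : (ringChar F).Prime := CharP.char_is_prime F _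
  rcases (Nat.dvd_prime hr).1 h2 with h4 | h4
  · exact absurd h4 h3.one_lt.ne'
  · have h5 : ((q ^ 2 : ℕ) : F) = 0 := by rw [← hF]; exact FiniteField.cast_card_eq_zero F
    rw [Nat.cast_pow, pow_eq_zero_iff two_ne_zero] at h5
    rw [← h4]
    exact (ringChar.spec F q).1 h5

/-- **No fixed vectors.** -/
theorem eq_zero_of_fix (hB : IsHerm hF B) {r n : ℕ} (hr : r.Prime) (hrq : ¬ r ∣ q) (ho : orderOf (-(q : ZMod r)) = n)
    (hn : 2 ≤ n) (hV : finrank F V = n) {T : Module.End F V} (hT : Iso B T) (hTr : T ^ r = 1) (hT1 : T ≠ 1)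
    {v : V} (hv : T v = v) : v = 0 := by
  have hrF := cast_ne_zero hF hr hrq
  -- `(T - 1)² u = 0` implies `(T - 1) u = 0`
  have hsq : ∀ u : V, T (T u - u) = T u - u → T u - u = 0 := by
    intro u hu
    have h1 := pow_apply_of_sq (T := T) (v := u) (w := T u - u) (by abel) hu r
    rw [hTr, Module.End.one_apply] at h1
    have h2 : (r : F) • (T u - u) = 0 := by
      have := h1.symm
      rwa [add_eq_left] at this
    exact (smul_eq_zero.1 h2).resolve_left hrF
  have hsurj : Function.Surjective T := by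
    intro w
    refine ⟨(T ^ (r - 1)) w, ?_⟩
    have h3 : T ((T ^ (r - 1)) w) = (T ^ (r - 1 + 1)) w := by rw [pow_succ']; rfl
    rw [h3, Nat.sub_add_cancel hr.one_le, hTr]
    rfl
  set W : Submodule F V := LinearMap.range (T - 1) with hW
  have hmem : ∀ w, w ∈ W ↔ ∃ u, T u - u = w := fun w => Iff.rfl
  have hTW : ∀ w ∈ W, T w ∈ W := by
    rintro w ⟨u, rfl⟩
    exact ⟨T u, by simp [map_sub]⟩
  have hnd : ∀ w ∈ W, (∀ u ∈ W, B w u = 0) → w = 0 := by
    intro w hw h
    have h1 : ∀ u, B (w - T w) (T u) = 0 := by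
      intro u
      have h2 := h (T u - u) ⟨u, rfl⟩
      rw [map_sub, sub_eq_zero] at h2
      rw [map_sub, LinearMap.sub_apply, hT, h2, sub_self]
    have h3 : w - T w = 0 := by
      refine hB.sep _ fun u => ?_
      obtain ⟨u', rfl⟩ := hsurj u
      exact h1 u'
    obtain ⟨u, rfl⟩ := hw
    refine hsq u ?_
    exact (sub_eq_zero.1 h3).symm
  have h1 : ∃ w ∈ W, T w ≠ w := by
    by_contra hcon
    push Not at hcon
    apply hT1
    ext u
    have h2 := hsq u (hcon _ ⟨u, rfl⟩)
    exact sub_eq_zero.1 h2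
  have h2 := le_finrank_sub hB hr hrq ho hn hT hTr hTW hnd h1
  have h3 : W = ⊤ := Submodule.eq_top_of_finrank_eq (le_antisymm (Submodule.finrank_le _) (hV ▸ h2))
  have h4 : Function.Surjective (T - 1 : Module.End F V) := LinearMap.range_eq_top.1 h3
  have h5 := LinearMap.injective_iff_surjective.2 h4
  apply h5
  rw [map_zero, LinearMap.sub_apply, Module.End.one_apply, hv, sub_self]

/-- **No proper nondegenerate invariant subspaces.** -/
theorem exists_iso (hB : IsHerm hF B) {r n : ℕ} (hr : r.Prime) (hrq : ¬ r ∣ q) (ho : orderOf (-(q : ZMod r)) = n)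
    (hn : 2 ≤ n) (hV : finrank F V = n) {T : Module.End F V} (hT : Iso B T) (hTr : T ^ r = 1) (hT1 : T ≠ 1)
    {W : Submodule F V} (hTW : ∀ w ∈ W, T w ∈ W) (hW0 : W ≠ ⊥) (hWt : W ≠ ⊤) :
    ∃ w ∈ W, (∀ u ∈ W, B w u = 0) ∧ w ≠ 0 := by
  by_contra hcon
  push Not at hcon
  obtain ⟨w, hw, hw0⟩ := Submodule.exists_mem_ne_zero_of_ne_bot hW0
  have h2 := le_finrank_sub hB hr hrq ho hn hT hTr hTW hcon
    ⟨w, hw, fun h => hw0 (eq_zero_of_fix hB hr hrq ho hn hV hT hTr hT1 h)⟩
  exact hWt (Submodule.eq_top_of_finrank_eq (le_antisymm (Submodule.finrank_le _) (hV ▸ h2)))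

/-- **The dimensions of the invariant subspaces.** -/
theorem dvd_finrank (hB : IsHerm hF B) {r n : ℕ} (hr : r.Prime) (hrq : ¬ r ∣ q) (ho : orderOf (-(q : ZMod r)) = n)
    (hn : 2 ≤ n) (hV : finrank F V = n) {T : Module.End F V} (hT : Iso B T) (hTr : T ^ r = 1) (hT1 : T ≠ 1)
    {W : Submodule F V} (hTW : ∀ w ∈ W, T w ∈ W) : orderOf ((q ^ 2 : ℕ) : ZMod r) ∣ finrank F W := by
  classical
  have := Fact.mk hr
  have hfin : Finite V := Module.finite_of_finite F
  have hfW : Fintype W := Fintype.ofFinite _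
  let f : Function.End W := fun w => ⟨T w, hTW w w.2⟩
  have hfp : ∀ k : ℕ, ∀ w : W, (((f ^ k) w : W) : V) = (T ^ k) w := by
    intro k
    induction k with
    | zero => intro w; rfl
    | succ k ih =>
      intro w
      have h1 : ((f ^ (k + 1)) w : W) = f ((f ^ k) w) := by rw [pow_succ']; rfl
      rw [h1]
      change T (((f ^ k) w : W) : V) = _
      rw [ih, pow_succ']
      rfl
  have hf : f ^ r ^ 1 = 1 := by
    rw [pow_one]
    funext w
    apply Subtype.ext
    rw [hfp, hTr]
    rfl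
  have h1 := Equiv.Perm.card_fixedPoints_modEq hf
  have h2 : Fintype.card (Function.fixedPoints f) = 1 := by
    rw [Fintype.card_eq_one_iff]
    refine ⟨⟨0, Subtype.ext (map_zero T)⟩, fun w => ?_⟩
    apply Subtype.ext
    apply Subtype.ext
    exact eq_zero_of_fix hB hr hrq ho hn hV hT hTr hT1 (congrArg Subtype.val w.2)
  rw [h2, ← Nat.card_eq_fintype_card, Module.natCard_eq_pow_finrank (K := F), Nat.card_eq_fintype_card, hF] at h1
  have h3 : (((q ^ 2) ^ finrank F W : ℕ) : ZMod r) = ((1 : ℕ) : ZMod r) := (ZMod.natCast_eq_natCast_iff _ _ _).2 h1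
  rw [Nat.cast_pow, Nat.cast_one] at h3
  exact orderOf_dvd_of_pow_eq_one h3

/-- the order of `q²` -/
theorem order_sq {r n : ℕ} (ho : orderOf (-(q : ZMod r)) = n) (hn : 2 ≤ n) :
    orderOf ((q ^ 2 : ℕ) : ZMod r) = n / Nat.gcd n 2 := by
  have h1 : ((q ^ 2 : ℕ) : ZMod r) = (-(q : ZMod r)) ^ 2 := by push_cast; ring
  rw [h1, orderOf_pow' _ two_ne_zero, ho]

/-- **The dichotomy.** -/
theorem dich (hB : IsHerm hF B) {r n : ℕ} (hr : r.Prime) (hrq : ¬ r ∣ q) (ho : orderOf (-(q : ZMod r)) = n)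
    (hn : 2 ≤ n) (hV : finrank F V = n) {T : Module.End F V} (hT : Iso B T) (hTr : T ^ r = 1) (hT1 : T ≠ 1)
    {y : Module.End F V} (hyT : Commute y T) (hsq : Squarefree (minpoly F y)) :
    Irreducible (minpoly F y) ∨ (∃ P R : F[X], Irreducible P ∧ IsCoprime P R ∧ minpoly F y = P * R ∧
      2 * finrank F (LinearMap.ker (aeval y P)) = n ∧ 2 * finrank F (LinearMap.ker (aeval y R)) = n ∧
      IsCompl (LinearMap.ker (aeval y P)) (LinearMap.ker (aeval y R)) ∧
      (∀ u ∈ LinearMap.ker (aeval y P), ∀ v ∈ LinearMap.ker (aeval y P), B u v = 0) ∧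
      (∀ u ∈ LinearMap.ker (aeval y R), ∀ v ∈ LinearMap.ker (aeval y R), B u v = 0)) := by
  have hint : IsIntegral F y := Algebra.IsIntegral.isIntegral y
  have hm0 : minpoly F y ≠ 0 := minpoly.ne_zero hint
  have hnt : Nontrivial V := Module.nontrivial_of_finrank_pos (R := F) (by omega)
  have hu : ¬ IsUnit (minpoly F y) := fun h => (minpoly.natDegree_pos hint).ne' (natDegree_eq_zero_of_isUnit h)
  obtain ⟨P, hP, R, hR⟩ := WfDvdMonoid.exists_irreducible_factor hu hm0
  by_cases hRu : IsUnit R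
  · left
    rw [hR]
    exact (irreducible_mul_isUnit hRu).2 hP
  right
  have hco : IsCoprime P R := by
    rw [hP.coprime_iff_not_dvd]
    rintro ⟨R', rfl⟩
    have h1 : P * P ∣ minpoly F y := ⟨R', by rw [hR, mul_assoc]⟩
    exact hP.not_isUnit (hsq _ h1)
  have hP0 : P ≠ 0 := hP.ne_zero
  have hR0 : R ≠ 0 := by
    rintro rfl
    rw [mul_zero] at hR
    exact hm0 hR
  -- the kernels
  have hdis : Disjoint (LinearMap.ker (aeval y P)) (LinearMap.ker (aeval y R)) :=
    disjoint_ker_aeval_of_isCoprime y hco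
  have hsup : LinearMap.ker (aeval y P) ⊔ LinearMap.ker (aeval y R) = ⊤ := by
    rw [sup_ker_aeval_eq_ker_aeval_mul_of_coprime y hco, ← hR, minpoly.aeval, LinearMap.ker_zero]
  have hcompl : IsCompl (LinearMap.ker (aeval y P)) (LinearMap.ker (aeval y R)) :=
    ⟨hdis, codisjoint_iff.2 hsup⟩
  have hinv : ∀ Q : F[X], ∀ w ∈ LinearMap.ker (aeval y Q), T w ∈ LinearMap.ker (aeval y Q) := by
    intro Q w hw
    rw [LinearMap.mem_ker] at hw ⊢
    have h1 : Commute (aeval y Q) T := (Algebra.commute_of_mem_adjoin_singleton_of_commute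
      (aeval_mem_adjoin_singleton F y) hyT.symm).symm
    have h2 : (aeval y Q) (T w) = T ((aeval y Q) w) := by
      have := LinearMap.congr_fun h1.eq w
      exact this
    rw [h2, hw, map_zero]
  have hne : ∀ Q Q' : F[X], minpoly F y = Q * Q' → ¬ IsUnit Q → LinearMap.ker (aeval y Q) ≠ ⊥ := by
    intro Q Q' hQ hQu h1
    apply hQu
    have hinj : Function.Injective (aeval y Q : Module.End F V) := LinearMap.ker_eq_bot.1 h1
    have h2 : aeval y Q' = 0 := by
      ext v
      apply hinj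
      have h3 : aeval y (Q * Q') = 0 := by rw [← hQ, minpoly.aeval]
      rw [map_mul] at h3
      have h4 := LinearMap.congr_fun h3 v
      rw [LinearMap.zero_apply, map_zero]
      exact h4
    have h3 := (minpoly.dvd_iff).2 h2
    rw [hQ] at h3
    have hQ'0 : Q' ≠ 0 := by
      rintro rfl
      rw [mul_zero] at hQ
      exact hm0 hQ
    obtain ⟨c, hc⟩ := h3
    have h4 : Q * c = 1 := by
      apply mul_left_cancel₀ hQ'0
      rw [mul_one]
      calc Q' * (Q * c) = Q * Q' * c := by ring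
        _ = Q' := hc.symm
    exact IsUnit.of_mul_eq_one _ h4
  have hPb := hne P R hR hP.not_isUnit
  have hRb := hne R P (by rw [hR, mul_comm]) hRu
  have hsum := Submodule.finrank_add_eq_of_isCompl hcompl
  rw [hV] at hsum
  have hpos : ∀ W : Submodule F V, W ≠ ⊥ → 0 < finrank F W := fun W hW =>
    Nat.pos_of_ne_zero fun h => hW (Submodule.finrank_eq_zero.1 h)
  have dP := dvd_finrank hB hr hrq ho hn hV hT hTr hT1 (hinv P)
  have dR := dvd_finrank hB hr hrq ho hn hV hT hTr hT1 (hinv R)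
  rw [order_sq ho hn] at dP dR
  have hPp := hpos _ hPb
  have hRp := hpos _ hRb
  have hlP := Nat.le_of_dvd hPp dP
  have hlR := Nat.le_of_dvd hRp dR
  have hg : Nat.gcd n 2 = 2 := by
    rcases (Nat.dvd_prime Nat.prime_two).1 (Nat.gcd_dvd_right n 2) with h | h
    · rw [h, Nat.div_one] at hlP
      omega
    · exact h
  have h2n : 2 ∣ n := hg ▸ Nat.gcd_dvd_left n 2
  rw [hg] at hlP hlR dP dR
  have e1 : 2 * finrank F (LinearMap.ker (aeval y P)) = n := by omega
  have e2 : 2 * finrank F (LinearMap.ker (aeval y R)) = n := by omega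
  -- totally isotropic
  have hiso : ∀ Q : F[X], LinearMap.ker (aeval y Q) ≠ ⊥ → LinearMap.ker (aeval y Q) ≠ ⊤ →
      2 * finrank F (LinearMap.ker (aeval y Q)) = n →
      ∀ u ∈ LinearMap.ker (aeval y Q), ∀ v ∈ LinearMap.ker (aeval y Q), B u v = 0 := by
    intro Q hb ht hd
    set W := LinearMap.ker (aeval y Q) with hW
    obtain ⟨w, hw, hwo, hw0⟩ := exists_iso hB hr hrq ho hn hV hT hTr hT1 (hinv Q) hb ht
    -- the radical of `W`
    let U : Submodule F V :=
      { carrier := {u | u ∈ W ∧ ∀ v ∈ W, B u v = 0}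
        add_mem' := fun {a b} ha hb' => ⟨W.add_mem ha.1 hb'.1, fun v hv => by
          rw [map_add, LinearMap.add_apply, ha.2 v hv, hb'.2 v hv, add_zero]⟩
        zero_mem' := ⟨W.zero_mem, fun v _ => by rw [map_zero, LinearMap.zero_apply]⟩
        smul_mem' := fun c a ha => ⟨W.smul_mem c ha.1, fun v hv => by
          rw [LinearMap.map_smulₛₗ, LinearMap.smul_apply, ha.2 v hv, smul_zero]⟩ }
    have hUW : U ≤ W := fun u hu => hu.1
    have hTinv : ∀ v ∈ W, ∃ v' ∈ W, T v' = v := by
      intro v hv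
      refine ⟨(T ^ (r - 1)) v, ?_, ?_⟩
      · have : ∀ k : ℕ, (T ^ k) v ∈ W := by
          intro k
          induction k with
          | zero => exact hv
          | succ k ih =>
            rw [pow_succ']
            exact hinv Q _ ih
        exact this _
      · have h3 : T ((T ^ (r - 1)) v) = (T ^ (r - 1 + 1)) v := by rw [pow_succ']; rfl
        rw [h3, Nat.sub_add_cancel hr.one_le, hTr]
        rfl
    have hUT : ∀ u ∈ U, T u ∈ U := by
      rintro u ⟨hu, hu2⟩
      refine ⟨hinv Q u hu, fun v hv => ?_⟩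
      obtain ⟨v', hv', rfl⟩ := hTinv v hv
      rw [hT]
      exact hu2 v' hv'
    have hU0 : 0 < finrank F U := hpos _ fun h => hw0 ((Submodule.mem_bot F).1 (h ▸ (⟨hw, hwo⟩ : w ∈ U)))
    have dU := dvd_finrank hB hr hrq ho hn hV hT hTr hT1 hUT
    rw [order_sq ho hn, hg] at dU
    have hlU := Nat.le_of_dvd hU0 dU
    have hUeq : U = W := Submodule.eq_of_le_of_finrank_le hUW (by omega)
    intro u hu v hv
    rw [← hUeq] at hu
    exact hu.2 v hv
  refine ⟨P, R, hP, hco, hR, e1, e2, hcompl, hiso P hPb (fun h => ?_) e1, hiso R hRb (fun h => ?_) e2⟩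
  · rw [h, finrank_top] at e1
    omega
  · rw [h, finrank_top] at e2
    omega

end Cfsg.Agent.H157.CS
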