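import Mathlib
import Cfsg.Agent.H326.CGU.Herm

/-!
# S3677, `PSU_n(q)`: numbers (helper157)

* `low` : a lower bound for `∏ (q^i - (-1)^i)`;
* `Shape p q n N` : `N = Q ^ (m (m - 1) / 2) * D`, `Q = q ^ k`, `k ≥ 2`, `k m = n`, `p ∤ D ≤ 2 ^ m Q ^ (m (m + 1) / 2)`;
* `Shape.bound` : `N * p ^ v_p(N) ≤ q ^ (n ^ 2 - 4)`.
-/

set_option autoImplicit false

namespace Cfsg.Agent.H157.CS.Num

open Finset

/-! ### the lower bound -/

/-- the exponent -/
def ex (N : ℕ) : ℕ := ∑ i ∈ range N, (i + 2)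

/-- the product -/
def PP (q N : ℕ) : ℕ := ∏ i ∈ range N, (if Even i then q ^ (i + 2) - 1 else q ^ (i + 2) + 1)

theorem ex_succ (N : ℕ) : ex (N + 1) = ex N + (N + 2) := Finset.sum_range_succ _ _

theorem PP_succ (q N : ℕ) : PP q (N + 1) = PP q N * (if Even N then q ^ (N + 2) - 1 else q ^ (N + 2) + 1) :=
  Finset.prod_range_succ _ _

theorem low {q : ℕ} (hq : 2 ≤ q) : ∀ N : ℕ, q ^ ex (N + 1) * q ^ (N + 2) + 2 * q ^ ex (N + 1) ≤
    2 * (q ^ (N + 2) * PP q (N + 1))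
  | 0 => by
    have e1 : ex (0 + 1) = 2 := rfl
    have e2 : PP q (0 + 1) = q ^ 2 - 1 := by
      rw [PP_succ]
      simp [PP]
    rw [e1, e2]
    obtain ⟨t, ht⟩ : ∃ t, q ^ 2 = t + 4 := Nat.exists_eq_add_of_le' (by
      calc 4 = 2 ^ 2 := by norm_num
        _ ≤ q ^ 2 := Nat.pow_le_pow_left hq 2)
    rw [show (0 + 2) = 2 by rfl, ht, show t + 4 - 1 = t + 3 by omega]
    nlinarith
  | N + 1 => by
    have ih := low hq N
    have e1 : ex (N + 1 + 1) = ex (N + 1) + (N + 2) + 1 := by rw [ex_succ (N + 1)]; ring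
    have e2 := PP_succ q (N + 1)
    set a := q ^ ex (N + 1) with ha
    set b := q ^ (N + 2) with hb
    set P := PP q (N + 1) with hP
    have hb4 : 4 ≤ b := by
      rw [hb]
      calc 4 = 2 ^ 2 := by norm_num
        _ ≤ q ^ 2 := Nat.pow_le_pow_left hq 2
        _ ≤ q ^ (N + 2) := Nat.pow_le_pow_right (by omega) (by omega)
    have e3 : q ^ ex (N + 1 + 1) = a * b * q := by rw [e1, pow_succ, pow_add]
    have e4 : q ^ (N + 1 + 2) = b * q := pow_succ _ _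
    rw [e2, e3, e4]
    obtain ⟨t, ht⟩ : ∃ t, b * q = t + 1 := Nat.exists_eq_add_of_le' (by nlinarith)
    have key : a * b * q * (b * q) + 2 * (a * b * q) ≤ 2 * (b * q * (P * t)) := by
      have h1 : (a * b + 2 * a) * (q * t) ≤ 2 * (b * P) * (q * t) := Nat.mul_le_mul_right _ ih
      have h2 : b * (b * q + 2) ≤ (b + 2) * t := by
        have h3 : (b + 2) * (t + 1) = (b + 2) * (b * q) := by rw [ht]
        nlinarith
      calc a * b * q * (b * q) + 2 * (a * b * q) = a * q * (b * (b * q + 2)) := by ring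
        _ ≤ a * q * ((b + 2) * t) := Nat.mul_le_mul_left _ h2
        _ = (a * b + 2 * a) * (q * t) := by ring
        _ ≤ 2 * (b * P) * (q * t) := h1
        _ = _ := by ring
    split_ifs
    · rw [ht, Nat.add_sub_cancel, ← ht]
      exact key
    · refine key.trans ?_
      refine Nat.mul_le_mul_left _ (Nat.mul_le_mul_left _ (Nat.mul_le_mul_left _ ?_))
      omega

theorem low' {q : ℕ} (hq : 2 ≤ q) (N : ℕ) : q ^ ex (N + 1) ≤ 2 * PP q (N + 1) := by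
  have h1 := low hq N
  have h2 : 0 < q ^ (N + 2) := by positivity
  refine Nat.le_of_mul_le_mul_left (?_ : q ^ (N + 2) * _ ≤ q ^ (N + 2) * _) h2
  calc q ^ (N + 2) * q ^ ex (N + 1) ≤ q ^ ex (N + 1) * q ^ (N + 2) + 2 * q ^ ex (N + 1) := by
        rw [mul_comm]; omega
    _ ≤ 2 * (q ^ (N + 2) * PP q (N + 1)) := h1
    _ = _ := by ring

theorem ex_eq (N : ℕ) : 2 * ex N = N * (N + 3) := by
  induction N with
  | zero => rfl
  | succ N ih => rw [ex_succ, mul_add, ih]; ring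

theorem tri (n : ℕ) : 2 * (n * (n - 1) / 2) = n * (n - 1) := by
  apply Nat.mul_div_cancel'
  rcases n with _ | n
  · simp
  · rw [Nat.add_sub_cancel, mul_comm]
    exact (Nat.even_mul_succ_self n).two_dvd

/-- the lower bound for the order of `PSU` -/
theorem psu_low {q n S : ℕ} (hq : 2 ≤ q) (hn : 3 ≤ n)
    (hS : Nat.gcd n (q + 1) * S = q ^ (n * (n - 1) / 2) * PP q (n - 1)) : q ^ (n ^ 2 - 4) < S := by
  obtain ⟨k, rfl⟩ := Nat.exists_eq_add_of_le' hn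
  have e1 : k + 3 - 1 = k + 1 + 1 := by omega
  rw [e1] at hS
  have h1 := low' hq (k + 1)
  have hg : Nat.gcd (k + 3) (q + 1) ≤ q + 1 := Nat.le_of_dvd (by omega) (Nat.gcd_dvd_right _ _)
  have h2 : q ^ ((k + 3) * (k + 1 + 1) / 2) * q ^ ex (k + 1 + 1) ≤ 2 * ((q + 1) * S) := by
    calc q ^ ((k + 3) * (k + 1 + 1) / 2) * q ^ ex (k + 1 + 1) ≤
        q ^ ((k + 3) * (k + 1 + 1) / 2) * (2 * PP q (k + 1 + 1)) := Nat.mul_le_mul_left _ h1
      _ = 2 * (Nat.gcd (k + 3) (q + 1) * S) := by rw [hS]; ring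
      _ ≤ 2 * ((q + 1) * S) := Nat.mul_le_mul_left _ (Nat.mul_le_mul_right _ hg)
  have h3 := tri (k + 3)
  rw [e1] at h3
  have h4 := ex_eq (k + 1 + 1)
  have h5 : (k + 3) * (k + 1 + 1) / 2 + ex (k + 1 + 1) = ((k + 3) ^ 2 - 4) + 3 := by
    have h6 : 4 ≤ (k + 3) ^ 2 := by nlinarith
    have h7 : 2 * ((k + 3) * (k + 1 + 1) / 2 + ex (k + 1 + 1)) + 2 = 2 * (k + 3) ^ 2 := by
      rw [mul_add, h3, h4]; ring
    omega
  rw [← pow_add, h5, pow_add] at h2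
  by_contra hcon
  push Not at hcon
  have h6 : 2 * ((q + 1) * S) ≤ 2 * ((q + 1) * q ^ ((k + 3) ^ 2 - 4)) :=
    Nat.mul_le_mul_left _ (Nat.mul_le_mul_left _ hcon)
  have h7 : q ^ ((k + 3) ^ 2 - 4) * q ^ 3 ≤ q ^ ((k + 3) ^ 2 - 4) * (2 * (q + 1)) := by
    calc _ ≤ _ := h2
      _ ≤ _ := h6
      _ = _ := by ring
  have h8 : q ^ 3 ≤ 2 * (q + 1) := Nat.le_of_mul_le_mul_left h7 (by positivity)
  have h9 : q * (q * q) = q ^ 3 := by ring
  nlinarith

/-! ### the shape -/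

/-- the shape of the order of the group of isometries commuting with `g` -/
def Shape (p q n N : ℕ) : Prop := ∃ k m D : ℕ, 2 ≤ k ∧ n = k * m ∧ N = (q ^ k) ^ (m * (m - 1) / 2) * D ∧ ¬ p ∣ D ∧
  D ≤ 2 ^ m * (q ^ k) ^ (m * (m + 1) / 2)

theorem tri' (m : ℕ) : 2 * (m * (m + 1) / 2) = m * (m + 1) :=
  Nat.mul_div_cancel' (Nat.even_mul_succ_self m).two_dvd

theorem tri_succ (m : ℕ) : (m + 1) * (m + 1 + 1) / 2 = m * (m + 1) / 2 + (m + 1) := by
  have h1 := tri' m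
  have h2 := tri' (m + 1)
  have h3 : (m + 1) * (m + 1 + 1) = m * (m + 1) + 2 * (m + 1) := by ring
  omega

theorem Shape.bound {p f n N : ℕ} (hp : p.Prime) (hf : 1 ≤ f) (hn : 4 ≤ n) (h : Shape p (p ^ f) n N) {c : ℕ}
    (hc : c ∣ N) : c * p ^ c.factorization p ≤ (p ^ f) ^ (n ^ 2 - 4) := by
  obtain ⟨k, m, D, hk, rfl, hN, hD, hDle⟩ := h
  set q := p ^ f with hq
  have hq2 : 2 ≤ q := by
    calc 2 ≤ p := hp.two_le
      _ = p ^ 1 := (pow_one p).symm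
      _ ≤ p ^ f := Nat.pow_le_pow_right hp.pos hf
  have hD0 : D ≠ 0 := fun h0 => hD (h0 ▸ dvd_zero p)
  have hm0 : m ≠ 0 := by rintro rfl; omega
  have hN0 : N ≠ 0 := by
    rw [hN]
    exact mul_ne_zero (by positivity) hD0
  have hv : N.factorization p = f * (k * (m * (m - 1) / 2)) := by
    rw [hN, hq, ← pow_mul, ← pow_mul, Nat.factorization_mul (pow_ne_zero _ hp.ne_zero) hD0, Finsupp.add_apply,
      Nat.factorization_eq_zero_of_not_dvd hD, add_zero, hp.factorization_pow, Finsupp.single_eq_same]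
  have hQ : ∀ A, (q ^ k) ^ A = q ^ (k * A) := fun A => (pow_mul q k A).symm
  have hvp : p ^ N.factorization p = (q ^ k) ^ (m * (m - 1) / 2) := by
    rw [hv, hQ, hq, pow_mul]
  have h1 : c * p ^ c.factorization p ≤ N * p ^ N.factorization p := by
    refine Nat.mul_le_mul (Nat.le_of_dvd (Nat.pos_of_ne_zero hN0) hc) (Nat.pow_le_pow_right hp.pos ?_)
    have hc0 : c ≠ 0 := fun h0 => hN0 (by rw [h0] at hc; exact Nat.eq_zero_of_zero_dvd hc)
    exact (Nat.factorization_le_iff_dvd hc0 hN0).2 hc p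
  refine h1.trans ?_
  rw [hvp, hN]
  have e1 : 2 ^ m ≤ q ^ m := Nat.pow_le_pow_left hq2 m
  calc (q ^ k) ^ (m * (m - 1) / 2) * D * (q ^ k) ^ (m * (m - 1) / 2) ≤
      (q ^ k) ^ (m * (m - 1) / 2) * (q ^ m * (q ^ k) ^ (m * (m + 1) / 2)) * (q ^ k) ^ (m * (m - 1) / 2) :=
        Nat.mul_le_mul_right _ (Nat.mul_le_mul_left _ (hDle.trans (Nat.mul_le_mul_right _ e1)))
    _ = q ^ (k * (m * (m - 1) / 2) + (m + k * (m * (m + 1) / 2)) + k * (m * (m - 1) / 2)) := by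
        rw [pow_add, pow_add, pow_add, hQ, hQ]
    _ ≤ q ^ ((k * m) ^ 2 - 4) := by
        refine Nat.pow_le_pow_right (by omega) ?_
        have t1 := tri m
        have t2 := tri' m
        set A := m * (m - 1) / 2 with hA
        set C := m * (m + 1) / 2 with hC
        obtain ⟨j, rfl⟩ : ∃ j, m = j + 1 := ⟨m - 1, by omega⟩
        rw [Nat.add_sub_cancel] at t1
        -- everything times four
        have h4 : 4 * (k * A + (j + 1 + k * C) + k * A) ≤ 3 * (k * (j + 1)) ^ 2 := by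
          have e2 : 4 * (k * A + (j + 1 + k * C) + k * A) = 2 * k * (2 * (2 * A)) + (4 * (j + 1) + 2 * k * (2 * C)) := by
            ring
          rw [e2, t1, t2]
          have e3 : 2 * (j + 1) ≤ k * (j + 1) := Nat.mul_le_mul_right _ hk
          nlinarith [Nat.mul_le_mul_left (k * (j + 1)) e3]
        have h16 : 16 ≤ (k * (j + 1)) ^ 2 := by nlinarith
        omega

theorem prod_le {s : ℕ} (hs : 1 ≤ s) (g : ℕ → ℕ) (hg : ∀ i, g i ≤ 2 * s ^ (i + 1)) (m : ℕ) :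
    ∏ i ∈ range m, g i ≤ 2 ^ m * s ^ (m * (m + 1) / 2) := by
  induction m with
  | zero => simp
  | succ m ih =>
    rw [Finset.prod_range_succ, tri_succ, pow_succ 2 m, pow_add]
    calc _ ≤ (2 ^ m * s ^ (m * (m + 1) / 2)) * (2 * s ^ (m + 1)) := Nat.mul_le_mul ih (hg m)
      _ = _ := by ring

theorem not_dvd_prod {p : ℕ} (hp : p.Prime) {g : ℕ → ℕ} {m : ℕ} (hg : ∀ i < m, ¬ p ∣ g i) : ¬ p ∣ ∏ i ∈ range m, g i := by
  rw [Prime.dvd_finsetProd_iff hp.prime]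
  rintro ⟨i, hi, h⟩
  exact hg i (Finset.mem_range.1 hi) h

theorem ndvd_add {p s i : ℕ} (hp : p.Prime) (hs : p ∣ s) : ¬ p ∣ s ^ (i + 1) + 1 := fun h =>
  hp.one_lt.ne' (Nat.dvd_one.1 ((Nat.dvd_add_right (dvd_pow hs (Nat.succ_ne_zero i))).1 h))

theorem ndvd_sub {p s i : ℕ} (hp : p.Prime) (hs : p ∣ s) (h1 : 1 ≤ s) : ¬ p ∣ s ^ (i + 1) - 1 := fun h => by
  have h2 : 1 ≤ s ^ (i + 1) := Nat.one_le_pow _ _ h1
  have h3 := (Nat.dvd_sub_iff_right h2 (dvd_pow hs (Nat.succ_ne_zero i))).1 h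
  exact hp.one_lt.ne' (Nat.dvd_one.1 h3)

theorem shape_gu {p q d m : ℕ} (hp : p.Prime) (hq : p ∣ q) (hq1 : 1 ≤ q) (hd : 2 ≤ d) :
    Shape p q (d * m) (H326.CGU.guCard m (q ^ d)) := by
  have hs1 : 1 ≤ q ^ d := Nat.one_le_pow _ _ hq1
  have hps : p ∣ q ^ d := dvd_pow hq (by omega)
  refine ⟨d, m, _, hd, rfl, rfl, not_dvd_prod hp fun i _ => ?_, prod_le hs1 _ (fun i => ?_) m⟩
  · split_ifs
    · exact ndvd_add hp hps
    · exact ndvd_sub hp hps hs1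
  · have h2 : 1 ≤ (q ^ d) ^ (i + 1) := Nat.one_le_pow _ _ hs1
    split_ifs <;> omega

theorem prod_gl {Q : ℕ} (m : ℕ) : ∏ i ∈ range m, (Q ^ m - Q ^ i) =
    Q ^ (m * (m - 1) / 2) * ∏ i ∈ range m, (Q ^ (i + 1) - 1) := by
  have h1 : ∏ i ∈ range m, (Q ^ m - Q ^ i) = ∏ i ∈ range m, (Q ^ i * (Q ^ (m - 1 - i + 1) - 1)) := by
    refine Finset.prod_congr rfl fun i hi => ?_
    rw [Finset.mem_range] at hi
    rw [Nat.mul_sub, ← pow_add, mul_one]
    congr 2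
    omega
  rw [h1, Finset.prod_mul_distrib, Finset.prod_pow_eq_pow_sum, Finset.sum_range_id]
  congr 1
  exact Finset.prod_range_reflect (fun i => Q ^ (i + 1) - 1) m

theorem shape_gl {p q d m : ℕ} (hp : p.Prime) (hq : p ∣ q) (hq1 : 1 ≤ q) (hd : 1 ≤ d) :
    Shape p q (2 * (d * m)) (∏ i ∈ range m, ((q ^ (2 * d)) ^ m - (q ^ (2 * d)) ^ i)) := by
  have hs1 : 1 ≤ q ^ (2 * d) := Nat.one_le_pow _ _ hq1
  have hps : p ∣ q ^ (2 * d) := dvd_pow hq (by omega)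
  refine ⟨2 * d, m, _, by omega, by ring, prod_gl m, not_dvd_prod hp fun i _ => ndvd_sub hp hps hs1,
    prod_le hs1 _ (fun i => ?_) m⟩
  have h2 : 1 ≤ (q ^ (2 * d)) ^ (i + 1) := Nat.one_le_pow _ _ hs1
  omega

end Cfsg.Agent.H157.CS.Num
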