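import Cfsg.Agent.H157.CS.Dich
import Cfsg.Agent.H326.CGU.Unit
import Cfsg.Agent.H446.CS.Lin
import Cfsg.Agent.H364.UnitaryReg

/-!
# S3677, `PSU_n(q)`: the centralizers of the elements commuting with an element of order `r`, `ord_r (-q) = n` (helper157)

* `card_cent_mk_dvd` : centralizers in a central quotient;
* `exists_lift` : an element of order `r` commuting with `pr g` lifts to an element of order `r` commuting with `g`;
* `IG B w` : the group of isometries commuting with `w`; `card_IG` : its order;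
* `struct` : `|C_{SU}(g)|` divides `|GU_m(q^d)|`, `n = d m`, `d ≥ 2`, or `|GL_m(q^{2d})|`, `n = 2 d m`.
-/

set_option autoImplicit false
set_option linter.unusedSectionVars false

namespace Cfsg.Agent.H157.CS

open Cfsg Cfsg.Agent.H948.UBase Cfsg.Agent.LieClassical.HermBasic Module Polynomial
open Cfsg.Agent.LieClassical.HermSiegel (act act_one act_mul act_add act_smul act_inv_act act_act_inv herm_act ext_act)
open Cfsg.Agent.ClassicalGeometry.PSUAutBasic (pr pr_eq_one_iff pr_surjective exists_scalar_of_mem_center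
  mem_center_of_act)
open Cfsg.Agent.H364.Unitary (sg)

/-! ### groups -/

section Grp

open Subgroup

/-- **Centralizers in the central quotient.** -/
theorem card_cent_mk_dvd {G : Type*} [Group G] [Finite G] (g : G) :
    Nat.card ↥(centralizer ({(QuotientGroup.mk g : G ⧸ center G)} : Set (G ⧸ center G))) ∣
      Nat.card ↥(centralizer ({g} : Set G)) := by
  set N : Subgroup G := (centralizer ({(QuotientGroup.mk g : G ⧸ center G)} : Set (G ⧸ center G))).comap
    (QuotientGroup.mk' (center G)) with hN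
  have hmem : ∀ h : G, h ∈ N ↔ h * g * h⁻¹ * g⁻¹ ∈ center G := by
    intro h
    rw [hN, mem_comap, mem_centralizer_singleton_iff, QuotientGroup.mk'_apply, ← QuotientGroup.mk_mul,
      ← QuotientGroup.mk_mul, QuotientGroup.eq]
    constructor
    · intro h1
      have h2 := (inferInstance : (center G).Normal).conj_mem _ ((center G).inv_mem h1) (g * h)
      have h4 : h * g * h⁻¹ * g⁻¹ = (g * h) * ((h * g)⁻¹ * (g * h))⁻¹ * (g * h)⁻¹ := by group
      rw [h4]
      exact h2
    · intro h1
      have h2 := (inferInstance : (center G).Normal).conj_mem _ ((center G).inv_mem h1) (g * h)⁻¹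
      have h4 : (h * g)⁻¹ * (g * h) = (g * h)⁻¹ * (h * g * h⁻¹ * g⁻¹)⁻¹ * ((g * h)⁻¹)⁻¹ := by group
      rw [h4]
      exact h2
  have hc := fun h : N => mem_center_iff.1 ((hmem h).1 h.2)
  let f : ↥N →* ↥(center G) :=
    { toFun := fun h => ⟨(h : G) * g * (h : G)⁻¹ * g⁻¹, (hmem h).1 h.2⟩
      map_one' := Subtype.ext (by simp)
      map_mul' := fun a b => by
        apply Subtype.ext
        show (a : G) * b * g * ((a : G) * b)⁻¹ * g⁻¹ = (a * g * (a : G)⁻¹ * g⁻¹) * (b * g * (b : G)⁻¹ * g⁻¹)
        have h1 := hc b (a : G)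
        calc (a : G) * b * g * ((a : G) * b)⁻¹ * g⁻¹ =
            (a : G) * ((b : G) * g * (b : G)⁻¹ * g⁻¹) * (g * (a : G)⁻¹ * g⁻¹) := by group
          _ = ((b : G) * g * (b : G)⁻¹ * g⁻¹) * (a : G) * (g * (a : G)⁻¹ * g⁻¹) := by rw [h1]
          _ = ((b : G) * g * (b : G)⁻¹ * g⁻¹) * ((a : G) * g * (a : G)⁻¹ * g⁻¹) := by group
          _ = _ := (hc b _).symm }
  have hker : Nat.card f.ker = Nat.card ↥(centralizer ({g} : Set G)) := by
    refine Nat.card_congr
      { toFun := fun h => ⟨(h : ↥N), ?_⟩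
        invFun := fun h => ⟨⟨h, ?_⟩, ?_⟩
        left_inv := fun h => rfl
        right_inv := fun h => rfl }
    · have h1 : ((h : ↥N) : G) * g * ((h : ↥N) : G)⁻¹ * g⁻¹ = 1 := congrArg Subtype.val h.2
      rw [mem_centralizer_singleton_iff]
      rw [mul_inv_eq_one, mul_inv_eq_iff_eq_mul] at h1
      exact h1
    · rw [hmem, mem_centralizer_singleton_iff.1 h.2, mul_inv_cancel_right, mul_inv_cancel]
      exact one_mem _
    · apply Subtype.ext
      show (h : G) * g * (h : G)⁻¹ * g⁻¹ = 1
      rw [mem_centralizer_singleton_iff.1 h.2, mul_inv_cancel_right, mul_inv_cancel]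
  have h1 : Nat.card N = Nat.card f.ker * Nat.card f.range := by
    rw [← index_ker f, mul_comm, index_mul_card]
  have h2 : Nat.card N = Nat.card ↥(centralizer ({(QuotientGroup.mk g : G ⧸ center G)} : Set (G ⧸ center G))) *
      Nat.card (center G) := by
    have h3 : N.index = (centralizer ({(QuotientGroup.mk g : G ⧸ center G)} : Set (G ⧸ center G))).index :=
      index_comap_of_surjective _ (QuotientGroup.mk'_surjective _)
    have h4 := N.card_mul_index
    have h5 := (centralizer ({(QuotientGroup.mk g : G ⧸ center G)} : Set (G ⧸ center G))).card_mul_index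
    have h6 := card_eq_card_quotient_mul_card_subgroup (center G)
    rw [← h4, h3, ← h5] at h6
    have h7 : (centralizer ({(QuotientGroup.mk g : G ⧸ center G)} : Set (G ⧸ center G))).index ≠ 0 :=
      index_ne_zero_of_finite
    apply Nat.eq_of_mul_eq_mul_right (Nat.pos_of_ne_zero h7)
    rw [h6]
    ring
  obtain ⟨t, ht⟩ := card_subgroup_dvd_card f.range
  refine ⟨t, ?_⟩
  have h4 : Nat.card f.range ≠ 0 := Nat.card_pos.ne'
  rw [h1, hker, ht] at h2
  apply Nat.eq_of_mul_eq_mul_right (Nat.pos_of_ne_zero h4)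
  rw [h2]
  ring

end Grp

/-! ### the lift -/

section Lift

variable {F : Type*} [Field F] [Fintype F] {n q r : ℕ}

theorem not_dvd_q1 (ho : orderOf (-(q : ZMod r)) = n) (hn : 2 ≤ n) : ¬ r ∣ q + 1 := by
  intro h
  have h3 : ((q + 1 : ℕ) : ZMod r) = 0 := (ZMod.natCast_eq_zero_iff _ _).2 h
  push_cast at h3
  have h4 : (-(q : ZMod r)) = 1 := by rw [neg_eq_iff_add_eq_zero, ← h3]
  rw [h4, orderOf_one] at ho
  omega

theorem not_dvd_q [Fact r.Prime] (ho : orderOf (-(q : ZMod r)) = n) (hn : 2 ≤ n) : ¬ r ∣ q := by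
  intro h
  rw [(ZMod.natCast_eq_zero_iff _ _).2 h, neg_zero] at ho
  have h1 := pow_orderOf_eq_one (0 : ZMod r)
  rw [ho, zero_pow (by omega)] at h1
  exact zero_ne_one h1

/-- the exponent of the centre -/
theorem center_pow (hF : Fintype.card F = q ^ 2) (hn : 3 ≤ n) {z : SU n F q}
    (hz : z ∈ Subgroup.center (SU n F q)) : z ^ (q + 1) = 1 := by
  obtain ⟨c, hc0, hc1, hc⟩ := exists_scalar_of_mem_center hF hn hz
  have hpow : ∀ m : ℕ, ∀ v, act (z ^ m) v = c ^ m • v := by
    intro m
    induction m with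
    | zero => intro v; rw [pow_zero, act_one, pow_zero, one_smul]
    | succ m ih => intro v; rw [pow_succ, act_mul, hc, act_smul, ih, smul_smul, pow_succ, mul_comm]
  apply ext_act
  intro v
  rw [hpow, pow_succ', hc1, one_smul, act_one]

/-- **Lifting.** -/
theorem exists_lift (hF : Fintype.card F = q ^ 2) (hn : 3 ≤ n) [hr : Fact r.Prime]
    (ho : orderOf (-(q : ZMod r)) = n) {g : SU n F q} {y : PSU n F q} (hy : orderOf y = r)
    (hc : y * pr n F q g = pr n F q g * y) : ∃ X : SU n F q, orderOf X = r ∧ Commute X g := by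
  obtain ⟨X0, rfl⟩ := pr_surjective (n := n) (F := F) (q := q) y
  have hrq := not_dvd_q1 ho (by omega)
  obtain ⟨b, hb⟩ : ∃ b : ℕ, (q + 1) * b ≡ 1 [MOD r] := by
    have h1 : Nat.Coprime (q + 1) r := ((Nat.Prime.coprime_iff_not_dvd hr.out).2 hrq).symm
    exact Nat.exists_mul_mod_eq_one_of_coprime h1 hr.out.one_lt |>.imp fun b hb => by
      rw [Nat.ModEq, hb.2, Nat.mod_eq_of_lt hr.out.one_lt]
  have h0 : X0 ^ r ∈ Subgroup.center (SU n F q) := by
    rw [← pr_eq_one_iff, map_pow, ← hy, pow_orderOf_eq_one]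
  set X := X0 ^ ((q + 1) * b) with hX
  have hXr : X ^ r = 1 := by
    have h2 : X ^ r = ((X0 ^ r) ^ (q + 1)) ^ b := by rw [hX, ← pow_mul, ← pow_mul, ← pow_mul]; congr 1; ring
    rw [h2, center_pow hF hn h0, one_pow]
  have hprX : pr n F q X = pr n F q X0 := by
    rw [hX, map_pow]
    have h3 : (pr n F q X0) ^ ((q + 1) * b) = (pr n F q X0) ^ 1 := pow_eq_pow_iff_modEq.2 (by rw [hy]; exact hb)
    rw [h3, pow_one]
  have hX1 : X ≠ 1 := by
    intro h
    rw [h, map_one] at hprX
    rw [← hprX, orderOf_one] at hy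
    exact hr.out.one_lt.ne hy
  refine ⟨X, orderOf_eq_prime hXr hX1, ?_⟩
  -- the commutator
  set z := X * g * X⁻¹ * g⁻¹ with hz
  have hzc : z ∈ Subgroup.center (SU n F q) := by
    rw [← pr_eq_one_iff, hz]
    simp only [map_mul, map_inv]
    rw [hprX, hc]
    group
  have hzm := Subgroup.mem_center_iff.1 hzc
  have h1 : ∀ k : ℕ, X ^ k * g = z ^ k * g * X ^ k := by
    intro k
    induction k with
    | zero => simp
    | succ k ih =>
      have h2 : X * g = z * g * X := by rw [hz]; group
      have h3 : z ^ k * g * X = g * z ^ k * X := by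
        have := (Subgroup.mem_center_iff.1 ((Subgroup.center (SU n F q)).pow_mem hzc k) g)
        rw [← this]
      calc X ^ (k + 1) * g = X * (X ^ k * g) := by rw [pow_succ']; group
        _ = X * z ^ k * g * X ^ k := by rw [ih]; group
        _ = z ^ k * X * g * X ^ k := by
          rw [(Subgroup.mem_center_iff.1 ((Subgroup.center (SU n F q)).pow_mem hzc k) X)]
        _ = z ^ k * (X * g) * X ^ k := by group
        _ = z ^ (k + 1) * g * X ^ (k + 1) := by rw [h2, pow_succ z, pow_succ' X]; group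
  have h2 := h1 r
  rw [hXr, one_mul, mul_one] at h2
  have h3 : z ^ r = 1 := mul_right_cancel (b := g) (by rw [one_mul]; exact h2.symm)
  have h4 : z ^ (q + 1) = 1 := center_pow hF hn hzc
  have h5 : z = 1 := by
    have h6 : orderOf z ∣ 1 := by
      have h7 : Nat.Coprime r (q + 1) := (Nat.Prime.coprime_iff_not_dvd hr.out).2 hrq
      rw [← h7]
      exact Nat.dvd_gcd (orderOf_dvd_of_pow_eq_one h3) (orderOf_dvd_of_pow_eq_one h4)
    exact orderOf_eq_one_iff.1 (Nat.dvd_one.1 h6)
  rw [hz] at h5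
  have h6 : X * g * X⁻¹ = g := mul_inv_eq_one.1 h5
  exact mul_inv_eq_iff_eq_mul.1 h6

end Lift

/-! ### the form and the action -/

section Form

variable {F : Type*} [Field F] [Fintype F] {n q : ℕ}

/-- the standard form -/
noncomputable def B0 (hF : Fintype.card F = q ^ 2) (n : ℕ) : (Fin n → F) →ₛₗ[cj hF] (Fin n → F) →ₗ[F] F :=
  LinearMap.mk₂'ₛₗ (cj hF) (RingHom.id F) (fun u v => hermForm n F q v u)
    (fun u u' v => herm_add_right hF v u u')
    (fun c u v => by
      rw [cj_apply, smul_eq_mul]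
      exact herm_smul_right c v u)
    (fun u v v' => herm_add_left v v' u)
    (fun c u v => by
      rw [RingHom.id_apply, smul_eq_mul]
      exact herm_smul_left c v u)

theorem B0_apply (hF : Fintype.card F = q ^ 2) (u v : Fin n → F) : B0 hF n u v = hermForm n F q v u := rfl

theorem isHerm_B0 (hF : Fintype.card F = q ^ 2) : IsHerm hF (B0 hF n) :=
  ⟨⟨fun x y => by rw [B0_apply, B0_apply, cj_apply, ← herm_swap hF]⟩, fun x h => by
    refine herm_nondeg hF fun v => ?_
    have h1 := h v
    rw [B0_apply] at h1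
    exact herm_eq_zero_swap hF h1⟩

/-- the action of `SU` -/
def aE (g : SU n F q) : (Fin n → F) ≃ₗ[F] (Fin n → F) where
  toFun := act g
  invFun := act g⁻¹
  left_inv := act_inv_act g
  right_inv := act_act_inv g
  map_add' := act_add g
  map_smul' := fun c v => act_smul g c v

theorem aE_apply (g : SU n F q) (v : Fin n → F) : aE g v = act g v := rfl

theorem aE_mul (g h : SU n F q) : aE (g * h) = aE g * aE h := LinearEquiv.ext fun v => act_mul g h v

theorem aE_injective : Function.Injective (aE : SU n F q → _) := fun _ _ h => ext_act fun v => LinearEquiv.congr_fun h v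

theorem isometry_aE (hF : Fintype.card F = q ^ 2) (g : SU n F q) (u v : Fin n → F) :
    B0 hF n (aE g u) (aE g v) = B0 hF n u v := herm_act g v u

/-- the homomorphism -/
def aH (n : ℕ) (F : Type*) [Field F] [Fintype F] (q : ℕ) : SU n F q →* ((Fin n → F) ≃ₗ[F] (Fin n → F)) where
  toFun := aE
  map_one' := LinearEquiv.ext fun v => act_one v
  map_mul' := aE_mul

/-- the isometries commuting with `w` -/
def IG {V : Type*} [AddCommGroup V] [Module F V] {hF : Fintype.card F = q ^ 2} (B : V →ₛₗ[cj hF] V →ₗ[F] F)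
    (w : V ≃ₗ[F] V) : Subgroup (V ≃ₗ[F] V) where
  carrier := {g | (∀ u v, B (g u) (g v) = B u v) ∧ ∀ v, g (w v) = w (g v)}
  one_mem' := ⟨fun _ _ => rfl, fun _ => rfl⟩
  mul_mem' := fun {a b} ha hb => ⟨fun u v => by
      change B (a (b u)) (a (b v)) = _
      rw [ha.1, hb.1], fun v => by
      change a (b (w v)) = w (a (b v))
      rw [hb.2, ha.2]⟩
  inv_mem' := fun {a} ha => ⟨fun u v => by
      change B (a.symm u) (a.symm v) = _
      rw [← ha.1, LinearEquiv.apply_symm_apply, LinearEquiv.apply_symm_apply], fun v => by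
      change a.symm (w v) = w (a.symm v)
      apply a.injective
      rw [LinearEquiv.apply_symm_apply, ha.2, LinearEquiv.apply_symm_apply]⟩

theorem finite_equiv : Finite ((Fin n → F) ≃ₗ[F] (Fin n → F)) :=
  Finite.of_injective (fun g : (Fin n → F) ≃ₗ[F] (Fin n → F) => (g : (Fin n → F) → (Fin n → F)))
    DFunLike.coe_injective

theorem card_dvd_IG (hF : Fintype.card F = q ^ 2) (g : SU n F q) :
    Nat.card ↥(Subgroup.centralizer ({g} : Set (SU n F q))) ∣ Nat.card ↥(IG (B0 hF n) (aE g)) := by
  have := finite_equiv (F := F) (n := n)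
  let f : ↥(Subgroup.centralizer ({g} : Set (SU n F q))) →* ↥(IG (B0 hF n) (aE g)) :=
    ((aH n F q).comp (Subgroup.centralizer ({g} : Set (SU n F q))).subtype).codRestrict _ (fun h =>
      ⟨isometry_aE hF _, fun v => by
        have h1 := Subgroup.mem_centralizer_singleton_iff.1 h.2
        change act (h : SU n F q) (act g v) = act g (act (h : SU n F q) v)
        rw [← act_mul, h1, act_mul]⟩)
  refine Subgroup.card_dvd_of_injective f fun a b hab => Subtype.ext (aE_injective (congrArg Subtype.val hab))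

/-! ### the structure -/

variable {r : ℕ}

/-- the element as an endomorphism -/
abbrev aL (g : SU n F q) : Module.End F (Fin n → F) := ((aE g : (Fin n → F) ≃ₗ[F] (Fin n → F)) : (Fin n → F) →ₗ[F] _)

theorem aL_pow (g : SU n F q) (k : ℕ) : aL g ^ k = aL (g ^ k) := by
  induction k with
  | zero => ext v; simp [aL, aE_apply, act_one]
  | succ k ih =>
    rw [pow_succ, ih]
    apply LinearMap.ext
    intro v
    change act (g ^ k) (act g v) = act (g ^ (k + 1)) v
    rw [← act_mul, ← pow_succ]

theorem aL_one : aL (1 : SU n F q) = 1 := LinearMap.ext fun v => act_one v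

theorem aL_injective {g h : SU n F q} (H : aL g = aL h) : g = h := ext_act fun v => LinearMap.congr_fun H v

theorem cast_q (hF : Fintype.card F = q ^ 2) : (q : F) = 0 := by
  have h5 : ((q ^ 2 : ℕ) : F) = 0 := by rw [← hF]; exact FiniteField.cast_card_eq_zero F
  rwa [Nat.cast_pow, pow_eq_zero_iff two_ne_zero] at h5

theorem squarefree_of (hF : Fintype.card F = q ^ 2) (hn : 2 ≤ n) [hr : Fact r.Prime]
    (ho : orderOf (-(q : ZMod r)) = n) {x₀ g : SU n F q} (hX : orderOf x₀ = r) (hc : Commute x₀ g) :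
    Squarefree (minpoly F (aL g)) := by
  have hrF := cast_ne_zero hF hr.out (not_dvd_q ho hn)
  have h1 := H364.Unitary.pow_sg_eq_one hF hr.out hrF (by omega) ho hX hc
  have hsg : ((sg q n : ℤ) : F) = 1 := by
    obtain ⟨k, rfl⟩ := Nat.exists_eq_add_of_le' (show 1 ≤ n by omega)
    unfold sg
    push_cast
    rw [cast_q hF, neg_zero, Finset.sum_range_succ']
    simp
  have h2 : (((sg q n).natAbs : ℕ) : F) ≠ 0 := by
    intro h0
    have h3 : ((sg q n : ℤ) : F) = 0 := by
      rcases Int.natAbs_eq (sg q n) with h4 | h4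
      · rw [h4, Int.cast_natCast, h0]
      · rw [h4, Int.cast_neg, Int.cast_natCast, h0, neg_zero]
    rw [hsg] at h3
    exact one_ne_zero h3
  have h3 : minpoly F (aL g) ∣ X ^ (sg q n).natAbs - C 1 := by
    rw [minpoly.dvd_iff]
    simp only [map_sub, map_pow, aeval_X, map_one, aL_pow, h1, aL_one]
    simp
  exact (separable_X_pow_sub_C (1 : F) h2 one_ne_zero).squarefree.squarefree_of_dvd h3

open Cfsg.Agent.H326.CGU (guCard) in
/-- **The order of the group of isometries commuting with `g`.** -/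
theorem struct (hF : Fintype.card F = q ^ 2) (hn : 2 ≤ n) [hr : Fact r.Prime]
    (ho : orderOf (-(q : ZMod r)) = n) {X g : SU n F q} (hX : orderOf X = r) (hc : Commute X g)
    (hg : g ∉ Subgroup.center (SU n F q)) :
    (∃ d m : ℕ, 2 ≤ d ∧ n = d * m ∧ Nat.card ↥(IG (B0 hF n) (aE g)) = guCard m (q ^ d)) ∨
    (∃ d m : ℕ, 1 ≤ d ∧ n = 2 * (d * m) ∧ Nat.card ↥(IG (B0 hF n) (aE g)) =
      ∏ i ∈ Finset.range m, ((q ^ (2 * d)) ^ m - (q ^ (2 * d)) ^ i)) := by
  have hrq := not_dvd_q ho hn
  have hB := isHerm_B0 (n := n) hF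
  have hV : finrank F (Fin n → F) = n := by rw [finrank_fintype_fun_eq_card, Fintype.card_fin]
  have hnt : Nontrivial (Fin n → F) := Module.nontrivial_of_finrank_pos (R := F) (by omega)
  have hT : Iso (B0 hF n) (aL X) := fun u v => isometry_aE hF X u v
  have hTr : aL X ^ r = 1 := by rw [aL_pow, ← hX, pow_orderOf_eq_one, aL_one]
  have hT1 : aL X ≠ 1 := by
    intro h
    have h1 : X = 1 := aL_injective (h.trans aL_one.symm)
    rw [h1, orderOf_one] at hX
    exact hr.out.one_lt.ne hX
  have hyT : Commute (aL g) (aL X) := LinearMap.ext fun v => by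
    change act g (act X v) = act X (act g v)
    rw [← act_mul, ← act_mul, hc.eq]
  have hq1 : 1 ≤ q := by have := two_le hF; omega
  have hsym : ∀ u v, B0 hF n v u = 1 * cj hF (B0 hF n u v) := fun u v => by rw [one_mul, hB.symm.eq]
  have hnd : ∀ u, (∀ v, B0 hF n u v = 0) → u = 0 := hB.sep
  rcases dich hB hr.out hrq ho hn hV hT hTr hT1 hyT (squarefree_of hF hn ho hX hc) with hirr |
    ⟨P, R, hP, hco, hm, e1, e2, hcompl, i1, i2⟩
  · left
    obtain ⟨s, m, hs, hdim, -, hcard⟩ := Cfsg.Agent.H326.CGU.card_cent_unitary (fun c => cj_cj hF c) (B0 hF n)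
      (Or.inl rfl) hsym hnd (aE g) (isometry_aE hF g) hirr (Or.inl (cj_ne_id hF))
    set d := (minpoly F ((aE g : (Fin n → F) ≃ₗ[F] (Fin n → F)) : (Fin n → F) →ₗ[F] (Fin n → F))).natDegree with hd
    have hsq : s = q ^ d := by
      rw [hF, ← pow_mul, mul_comm, pow_mul] at hs
      exact Nat.pow_left_injective two_ne_zero hs
    refine ⟨d, m, ?_, by rw [← hV, hdim], by rw [← hsq]; exact hcard⟩
    have hint : IsIntegral F (aL g) := Algebra.IsIntegral.isIntegral _
    have h1 : 1 ≤ d := minpoly.natDegree_pos hint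
    rcases Nat.lt_or_ge 1 d with h2 | h2
    · exact h2
    · exfalso
      apply hg
      have h3 : d = 1 := le_antisymm h2 h1
      obtain ⟨c, hc'⟩ := minpoly.natDegree_eq_one_iff.1 h3
      refine mem_center_of_act (c := c) fun v => ?_
      have h4 := LinearMap.congr_fun hc' v
      rw [Module.algebraMap_end_apply] at h4
      exact h4.symm
  · right
    obtain ⟨m, hdim, hcard⟩ := Cfsg.Agent.H446.CS.card_lin_ker (B := B0 hF n) ⟨1, hsym⟩ (fun v h => by
        refine hnd v fun u => ?_
        rw [hsym, h, map_zero, mul_zero]) hnd (aE g) (isometry_aE hF g) hco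
      (by
        have := minpoly.aeval F (aL g)
        rwa [hm] at this)
      (fun u v hu hv => i1 u (LinearMap.mem_ker.2 hu) v (LinearMap.mem_ker.2 hv))
      (fun u v hu hv => i2 u (LinearMap.mem_ker.2 hu) v (LinearMap.mem_ker.2 hv)) hP
    refine ⟨P.natDegree, m, hP.natDegree_pos, by rw [← hV, hdim], ?_⟩
    rw [show q ^ (2 * P.natDegree) = Nat.card F ^ P.natDegree by rw [Nat.card_eq_fintype_card, hF, ← pow_mul]]
    exact hcard

end Form

end Cfsg.Agent.H157.CS
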