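import Cfsg.Agent.H157.CS.Red
import Cfsg.Agent.H157.CS.Num
import Cfsg.Agent.H277.ClsPsu

/-!
# S3677, `PSU_n(q)`: centralizers containing an element of order `r`, `ord_r (-q) = n` (helper157)

* `shape_IG` : the shape of the order of the group of isometries commuting with `g`;
* `exists_shape` : the order of the centralizer of `x ≠ 1` in `PSU_n(q)`, `r ∣ |C(x)|`, divides a number of this shape;
* `size_psu_top` : `|C(x)| * |C(x)|_p < |PSU_n(q)|`.
-/

set_option autoImplicit false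

namespace Cfsg.Agent.H157.CS

open Cfsg Cfsg.Agent.H948.UBase Cfsg.Agent.LieClassical.HermBasic Cfsg.Agent.H157.CS.Num
open Cfsg.Agent.ClassicalGeometry.PSUAutBasic (pr pr_eq_one_iff pr_surjective)

variable {F : Type*} [Field F] [Fintype F] {n r : ℕ}

theorem shape_IG {q p : ℕ} (hp : p.Prime) (hpq : p ∣ q) (hF : Fintype.card F = q ^ 2) (hn : 2 ≤ n) [hr : Fact r.Prime]
    (ho : orderOf (-(q : ZMod r)) = n) {X g : SU n F q} (hX : orderOf X = r) (hc : Commute X g)
    (hg : g ∉ Subgroup.center (SU n F q)) : Shape p q n (Nat.card ↥(IG (B0 hF n) (aE g))) := by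
  have hq1 : 1 ≤ q := by have := two_le hF; omega
  rcases struct hF hn ho hX hc hg with ⟨d, m, hd, rfl, h⟩ | ⟨d, m, hd, rfl, h⟩
  · rw [h]
    exact shape_gu hp hpq hq1 hd
  · rw [h]
    exact shape_gl hp hpq hq1 hd

/-- a lift of `x` commuting with an element of order `r` -/
theorem exists_rep {q : ℕ} (hF : Fintype.card F = q ^ 2) (hn : 3 ≤ n) [hr : Fact r.Prime]
    (ho : orderOf (-(q : ZMod r)) = n) {x : PSU n F q} (hx : x ≠ 1)
    (hrx : r ∣ Nat.card ↥(Subgroup.centralizer ({x} : Set (PSU n F q)))) :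
    ∃ X g : SU n F q, orderOf X = r ∧ Commute X g ∧ g ∉ Subgroup.center (SU n F q) ∧ pr n F q g = x := by
  obtain ⟨g, rfl⟩ := pr_surjective (n := n) (F := F) (q := q) x
  obtain ⟨y, hy⟩ := exists_prime_orderOf_dvd_card' r hrx
  obtain ⟨X, hX, hc⟩ := exists_lift hF hn ho (g := g) (y := (y : PSU n F q))
    (by rw [← hy]; exact Subgroup.orderOf_coe y) (Subgroup.mem_centralizer_singleton_iff.1 y.2)
  exact ⟨X, g, hX, hc, fun h => hx (pr_eq_one_iff.2 h), rfl⟩

theorem exists_shape {q p : ℕ} (hp : p.Prime) (hpq : p ∣ q) (hF : Fintype.card F = q ^ 2) (hn : 3 ≤ n) (hr : r.Prime)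
    (ho : orderOf (-(q : ZMod r)) = n) {x : PSU n F q} (hx : x ≠ 1)
    (hrx : r ∣ Nat.card ↥(Subgroup.centralizer ({x} : Set (PSU n F q)))) :
    ∃ N, Shape p q n N ∧ Nat.card ↥(Subgroup.centralizer ({x} : Set (PSU n F q))) ∣ N := by
  have := Fact.mk hr
  obtain ⟨X, g, hX, hc, hg, rfl⟩ := exists_rep hF hn ho hx hrx
  exact ⟨_, shape_IG hp hpq hF (by omega) ho hX hc hg, (card_cent_mk_dvd g).trans (card_dvd_IG hF g)⟩

/-- **The size of the centralizers.** -/
theorem size_psu_top {p f : ℕ} (hp : p.Prime) (hf : 1 ≤ f) (hF : Fintype.card F = (p ^ f) ^ 2) (hn : 4 ≤ n)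
    (hr : r.Prime) (ho : orderOf (-((p ^ f : ℕ) : ZMod r)) = n) (x : PSU n F (p ^ f)) (hx : x ≠ 1)
    (hrx : r ∣ Nat.card ↥(Subgroup.centralizer ({x} : Set (PSU n F (p ^ f))))) :
    Nat.card ↥(Subgroup.centralizer ({x} : Set (PSU n F (p ^ f)))) *
      p ^ (Nat.card ↥(Subgroup.centralizer ({x} : Set (PSU n F (p ^ f))))).factorization p <
        Nat.card (PSU n F (p ^ f)) := by
  obtain ⟨N, hN, hd⟩ := exists_shape hp (dvd_pow_self p (by omega)) hF (by omega) hr ho hx hrx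
  refine lt_of_le_of_lt (hN.bound hp hf hn hd) ?_
  exact psu_low (two_le hF) (by omega) (Cfsg.Agent.H277.ClsPsu.card_psu hF (by omega))

end Cfsg.Agent.H157.CS
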