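import Cfsg.Agent.H157.CS.TopA
import Cfsg.Agent.H157.CS.Num

/-!
# S3677, `PSU_n(q)`, `gcd(n, q + 1) = 1`: the lattice of the centralizers containing elements of order `r`,
`ord_r (-q) = n` (helper157)
-/

set_option autoImplicit false
set_option linter.unusedSectionVars false

namespace Cfsg.Agent.H157.CS

open Cfsg Cfsg.Agent.H948.UBase Cfsg.Agent.LieClassical.HermBasic Cfsg.Agent.H157.CS.Num
open Cfsg.Agent.H948.UProd (ph card_SU)
open Cfsg.Agent.ClassicalGeometry.PSUAutBasic (pr pr_eq_one_iff pr_surjective)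
open Cfsg.Agent.H364.Unitary (sg)
open Cfsg.Agent.H446.CS (cc)
open Cfsg.Agent.H370.AAM (Co mem_co)
open Cfsg.Agent.H431.CS (LatW co_congr)

universe u

/-! ### numbers -/

theorem cc_fac {p f m k : ℕ} (hp : p.Prime) (hf : 1 ≤ f) (hk : 0 < k) :
    cc (p ^ f) m k ≠ 0 ∧ (cc (p ^ f) m k).factorization p = f * (k * (m * (m - 1) / 2)) := by
  have hs1 : 1 ≤ (p ^ f) ^ k := Nat.one_le_pow _ _ (Nat.one_le_pow _ _ hp.pos)
  have hps : p ∣ (p ^ f) ^ k := dvd_pow (dvd_pow_self p (by omega)) (by omega)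
  set D := ∏ i ∈ Finset.range m, (if Odd k then (if Even i then ((p ^ f) ^ k) ^ (i + 1) + 1 else ((p ^ f) ^ k) ^ (i + 1) - 1)
    else ((p ^ f) ^ k) ^ (i + 1) - 1) with hD
  have hpD : ¬ p ∣ D := by
    refine not_dvd_prod hp fun i _ => ?_
    split_ifs
    · exact ndvd_add hp hps
    · exact ndvd_sub hp hps hs1
    · exact ndvd_sub hp hps hs1
  have hD0 : D ≠ 0 := fun h0 => hpD (h0 ▸ dvd_zero p)
  have hpow : ((p ^ f) ^ k) ^ (m * (m - 1) / 2) = p ^ (f * (k * (m * (m - 1) / 2))) := by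
    rw [← pow_mul, ← pow_mul]
  have hcc : cc (p ^ f) m k = p ^ (f * (k * (m * (m - 1) / 2))) * D := by
    rw [← hpow]
    rfl
  rw [hcc]
  refine ⟨mul_ne_zero (pow_ne_zero _ hp.ne_zero) hD0, ?_⟩
  rw [Nat.factorization_mul (pow_ne_zero _ hp.ne_zero) hD0, Finsupp.add_apply,
    Nat.factorization_eq_zero_of_not_dvd hpD, add_zero, hp.factorization_pow, Finsupp.single_eq_same]

theorem fac_of {p f m k c : ℕ} (hp : p.Prime) (hf : 1 ≤ f) (hk : 0 < k) (h : c * (p ^ f + 1) = cc (p ^ f) m k) :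
    c.factorization p = f * (k * (m * (m - 1) / 2)) := by
  obtain ⟨h0, h1⟩ := cc_fac (m := m) hp hf hk
  rw [← h] at h0 h1
  have hc0 := left_ne_zero_of_mul h0
  have h2 : ¬ p ∣ p ^ f + 1 := by
    have := ndvd_add (p := p) (s := p ^ f) (i := 0) hp (dvd_pow_self p (by omega))
    simpa using this
  rwa [Nat.factorization_mul hc0 (Nat.succ_ne_zero _), Finsupp.add_apply,
    Nat.factorization_eq_zero_of_not_dvd h2, add_zero] at h1

theorem cc_one {q n : ℕ} (hn : 1 ≤ n) : cc q 1 n = ph q (n - 1) := by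
  have e1 : n - 1 + 1 = n := by omega
  have e2 : Even (n - 1) ↔ Odd n := by
    rcases Nat.even_or_odd n with h | h
    · have : Odd (n - 1) := by obtain ⟨t, ht⟩ := h; exact ⟨t - 1, by omega⟩
      exact ⟨fun h' => absurd this (Nat.not_odd_iff_even.2 h'), fun h' => absurd h' (Nat.not_odd_iff_even.2 h)⟩
    · exact ⟨fun _ => h, fun _ => by obtain ⟨t, ht⟩ := h; exact ⟨t, by omega⟩⟩
  unfold cc ph
  simp only [e1, e2, Finset.prod_range_one, Nat.sub_self, mul_zero, Nat.zero_div, pow_zero, one_mul, zero_add, pow_one]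
  by_cases h : Odd n <;> simp [h]

theorem ph_natAbs {q n : ℕ} (hq : 1 ≤ q) (hn : 1 ≤ n) : ph q (n - 1) = ((q : ℤ) ^ n - (-1) ^ n).natAbs := by
  have e1 : n - 1 + 1 = n := by omega
  unfold ph
  rw [e1]
  split_ifs with h
  · have h2 : Odd n := by obtain ⟨t, ht⟩ := h; exact ⟨t, by omega⟩
    rw [h2.neg_one_pow]
    have h3 : ((q : ℤ) ^ n - -1) = ((q ^ n + 1 : ℕ) : ℤ) := by push_cast; ring
    rw [h3, Int.natAbs_natCast]
  · have h2 : Even n := by
      obtain ⟨t, ht⟩ := Nat.not_even_iff_odd.1 h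
      exact ⟨t + 1, by omega⟩
    rw [h2.neg_one_pow]
    have h4 : 1 ≤ q ^ n := Nat.one_le_pow _ _ hq
    have h3 : ((q : ℤ) ^ n - 1) = ((q ^ n - 1 : ℕ) : ℤ) := by push_cast [Nat.cast_sub h4]; ring
    rw [h3, Int.natAbs_natCast]

/-! ### the lattice -/

variable {F : Type u} [Field F] [Fintype F] {n p f r : ℕ}

/-- elements commuting with an element of order `r` do not have order `p` -/
theorem not_comm_p {q : ℕ} (hF : Fintype.card F = q ^ 2) (hn : 2 ≤ n) [hr : Fact r.Prime]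
    (ho : orderOf (-(q : ZMod r)) = n) {X g : SU n F q} (hX : orderOf X = r) (hc : Commute X g) (hp : p.Prime)
    (hpq : p ∣ q) : orderOf g ≠ p := by
  intro hg
  have hrF := cast_ne_zero hF hr.out (not_dvd_q ho hn)
  have h1 := H364.Unitary.pow_sg_eq_one hF hr.out hrF (by omega) ho hX hc
  have h2 : p ∣ (sg q n).natAbs := hg ▸ orderOf_dvd_of_pow_eq_one h1
  have h3 : (p : ℤ) ∣ sg q n := Int.natCast_dvd.2 h2
  have h4 : (p : ℤ) ∣ sg q n * (-(q : ℤ) - 1) := Dvd.dvd.mul_right h3 _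
  rw [H364.Unitary.sg_mul] at h4
  have h5 : (p : ℤ) ∣ (-(q : ℤ)) ^ n := dvd_pow ((dvd_neg (α := ℤ)).2 (Int.natCast_dvd_natCast.2 hpq)) (by omega)
  have h6 : (p : ℤ) ∣ 1 := by
    have := dvd_sub h5 h4
    simpa using this
  exact hp.one_lt.ne' (Nat.dvd_one.1 (by exact_mod_cast h6))

theorem center_bot {q : ℕ} (hF : Fintype.card F = q ^ 2) (hn : 3 ≤ n) (hco : Nat.Coprime n (q + 1)) :
    Subgroup.center (SU n F q) = ⊥ := by
  have h1 := Cfsg.Agent.S0279.result hF n hn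
  rw [hco] at h1
  exact Subgroup.card_eq_one.1 h1

/-- the list -/
theorem list_su {q : ℕ} (hF : Fintype.card F = q ^ 2) (hn : 3 ≤ n) (hco : Nat.Coprime n (q + 1)) [hr : Fact r.Prime]
    (ho : orderOf (-(q : ZMod r)) = n) {g : SU n F q} (hg : g ≠ 1)
    (hrg : r ∣ Nat.card ↥(Subgroup.centralizer ({g} : Set (SU n F q)))) :
    ∃ m k : ℕ, 2 ≤ k ∧ k * m = n ∧
      Nat.card ↥(Subgroup.centralizer ({g} : Set (SU n F q))) * (q + 1) = cc q m k := by
  obtain ⟨y, hy⟩ := exists_prime_orderOf_dvd_card' r hrg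
  have hX : orderOf (y : SU n F q) = r := by rw [← hy]; exact Subgroup.orderOf_coe y
  have hc : Commute (y : SU n F q) g := Subgroup.mem_centralizer_singleton_iff.1 y.2
  obtain ⟨m, k, hk, hkm, hcard, h1⟩ := struct' hF (by omega) ho hX hc
  refine ⟨m, k, ?_, hkm, by rw [← card_IG hF hco, hcard]⟩
  rcases Nat.lt_or_ge 1 k with h2 | h2
  · exact h2
  · exfalso
    have h3 := h1 (by omega)
    rw [center_bot hF hn hco, Subgroup.mem_bot] at h3
    exact hg h3

/-- `n (m - 1)` -/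
theorem two_mul_exp {n m k : ℕ} (h : k * m = n) : 2 * (k * (m * (m - 1) / 2)) = n * (m - 1) := by
  rw [mul_left_comm, tri, ← h, mul_assoc]

variable (hp : p.Prime) (hf : 1 ≤ f) (hF : Fintype.card F = (p ^ f) ^ 2) (hn : 3 ≤ n)
  (hco : Nat.Coprime n (p ^ f + 1)) [hr : Fact r.Prime] (ho : orderOf (-((p ^ f : ℕ) : ZMod r)) = n)

include hp hf hF hn in
theorem fac_su : (Nat.card (SU n F (p ^ f))).factorization p = f * (n * (n - 1) / 2) := by
  have h1 := card_SU (n := n) hF (by omega)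
  have hD : ¬ p ∣ ∏ i ∈ Finset.range (n - 1), ph (p ^ f) (i + 1) := by
    refine not_dvd_prod hp fun i _ => ?_
    have hps : p ∣ p ^ f := dvd_pow_self p (by omega)
    unfold ph
    split_ifs
    · exact ndvd_add hp hps
    · exact ndvd_sub hp hps (Nat.one_le_pow _ _ hp.pos)
  have hD0 : ∏ i ∈ Finset.range (n - 1), ph (p ^ f) (i + 1) ≠ 0 := fun h0 => hD (h0 ▸ dvd_zero p)
  rw [h1, ← pow_mul, Nat.factorization_mul (pow_ne_zero _ hp.ne_zero) hD0, Finsupp.add_apply,
    Nat.factorization_eq_zero_of_not_dvd hD, add_zero, hp.factorization_pow, Finsupp.single_eq_same]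

include hp hf hF hn hco ho in
/-- **The `p`-prime members.** -/
theorem one_su {g : SU n F (p ^ f)} (hg : g ≠ 1)
    (hrg : r ∣ Nat.card ↥(Subgroup.centralizer ({g} : Set (SU n F (p ^ f)))))
    (hpg : ¬ p ∣ Nat.card ↥(Subgroup.centralizer ({g} : Set (SU n F (p ^ f))))) :
    Nat.card ↥(Subgroup.centralizer ({g} : Set (SU n F (p ^ f)))) * (p ^ f + 1) = ph (p ^ f) (n - 1) := by
  obtain ⟨m, k, hk, hkm, h⟩ := list_su hF hn hco ho hg hrg
  have h1 := fac_of hp hf (by omega) h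
  rw [Nat.factorization_eq_zero_of_not_dvd hpg] at h1
  have h2 := two_mul_exp hkm
  have h3 : k * (m * (m - 1) / 2) = 0 := by
    rcases Nat.mul_eq_zero.1 h1.symm with h4 | h4
    · omega
    · exact h4
  rw [h3, mul_zero] at h2
  have h4 : m = 1 := by
    rcases Nat.mul_eq_zero.1 h2.symm with h5 | h5
    · omega
    · have : m ≠ 0 := by rintro rfl; omega
      omega
  subst h4
  rw [mul_one] at hkm
  subst hkm
  rw [h, cc_one (by omega)]

include hp hf hF hn ho in
theorem not_p_dvd {X : SU n F (p ^ f)} (hX : orderOf X = r) :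
    ¬ p ∣ Nat.card ↥(Subgroup.centralizer ({X} : Set (SU n F (p ^ f)))) := by
  intro h
  have := Fact.mk hp
  obtain ⟨y, hy⟩ := exists_prime_orderOf_dvd_card' p h
  have h1 : Commute X (y : SU n F (p ^ f)) := (Subgroup.mem_centralizer_singleton_iff.1 y.2).symm
  exact not_comm_p hF (by omega) ho hX h1 hp (dvd_pow_self p (by omega)) ((Subgroup.orderOf_coe y).trans hy)

include hp hf hF hn ho in
theorem not_r_dvd {u : SU n F (p ^ f)} (hu : orderOf u = p) :
    ¬ r ∣ Nat.card ↥(Subgroup.centralizer ({u} : Set (SU n F (p ^ f)))) := by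
  intro h
  obtain ⟨y, hy⟩ := exists_prime_orderOf_dvd_card' r h
  have h1 : Commute (y : SU n F (p ^ f)) u := Subgroup.mem_centralizer_singleton_iff.1 y.2
  exact not_comm_p hF (by omega) ho ((Subgroup.orderOf_coe y).trans hy) h1 hp (dvd_pow_self p (by omega)) hu

include hp hf hF hn hco ho in
theorem latW_su : LatW (SU n F (p ^ f)) p r := by
  have hr' := hr.out
  have hpF := Fact.mk hp
  have hq1 : 1 ≤ p ^ f := Nat.one_le_pow _ _ hp.pos
  have hpq : p ∣ p ^ f := dvd_pow_self p (by omega)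
  have hcardSU := card_SU (n := n) hF (by omega)
  have hS0 : Nat.card (SU n F (p ^ f)) ≠ 0 := Nat.card_pos.ne'
  have hle : ∀ g : SU n F (p ^ f), g ≠ 1 → r ∣ Nat.card ↥(Subgroup.centralizer ({g} : Set (SU n F (p ^ f)))) →
      ∃ m k : ℕ, 2 ≤ k ∧ k * m = n ∧
      Nat.card ↥(Subgroup.centralizer ({g} : Set (SU n F (p ^ f)))) * (p ^ f + 1) = cc (p ^ f) m k ∧
      (Nat.card ↥(Subgroup.centralizer ({g} : Set (SU n F (p ^ f))))).factorization p <
        (Nat.card (SU n F (p ^ f))).factorization p := by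
    intro g hg hrg
    obtain ⟨m, k, hk, hkm, h⟩ := list_su hF hn hco ho hg hrg
    refine ⟨m, k, hk, hkm, h, ?_⟩
    rw [fac_of hp hf (by omega) h, fac_su hp hf hF hn]
    refine Nat.mul_lt_mul_of_pos_left ?_ (by omega)
    have h1 := two_mul_exp hkm
    have h2 := tri n
    have h3 : m < n := by
      have : m ≠ 0 := by rintro rfl; omega
      nlinarith
    have h4 : n * (m - 1) < n * (n - 1) := Nat.mul_lt_mul_of_pos_left (by omega) (by omega)
    omega
  have hone : ∀ c, c ≠ Nat.card (SU n F (p ^ f)) → ∀ g : SU n F (p ^ f),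
      Nat.card ↥(Subgroup.centralizer ({g} : Set (SU n F (p ^ f)))) = c → g ≠ 1 := by
    rintro c hc g rfl rfl
    apply hc
    rw [Subgroup.centralizer_eq_top_iff_subset.2 (by simp), Subgroup.card_top]
  refine ⟨?_, ?_, ?_, ?_⟩
  · -- an element of order `p`
    have h1 : p ∣ Nat.card (SU n F (p ^ f)) := by
      rw [hcardSU]
      refine Dvd.dvd.mul_right (dvd_pow hpq ?_) _
      have := tri n
      have h2 : 0 < n * (n - 1) := Nat.mul_pos (by omega) (by omega)
      omega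
    obtain ⟨u, hu⟩ := exists_prime_orderOf_dvd_card' p h1
    exact ⟨_, mem_co u, not_r_dvd hp hf hF hn ho hu⟩
  · -- an element of order `r`
    have hphr : r ∣ ph (p ^ f) (n - 1) := by
      have h1 : (-((p ^ f : ℕ) : ZMod r)) ^ n = 1 := by rw [← ho]; exact pow_orderOf_eq_one _
      have h2 : ((((p ^ f : ℕ) : ℤ) ^ n - (-1) ^ n : ℤ) : ZMod r) = 0 := by
        push_cast
        have h3 : (-((p ^ f : ℕ) : ZMod r)) ^ n = (-1) ^ n * ((p ^ f : ℕ) : ZMod r) ^ n := by
          rw [← mul_pow, neg_one_mul]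
        rw [h3] at h1
        have h4 : ((-1 : ZMod r) ^ n) * (-1) ^ n = 1 := by rw [← mul_pow]; simp
        push_cast at h1
        linear_combination ((-1 : ZMod r) ^ n) * h1 - (((p : ZMod r) ^ f) ^ n) * h4
      rw [ZMod.intCast_zmod_eq_zero_iff_dvd] at h2
      rw [ph_natAbs hq1 (by omega)]
      exact Int.natCast_dvd.1 h2
    obtain ⟨N, rfl⟩ : ∃ N, n = N + 2 := Nat.exists_eq_add_of_le' (by omega)
    have e1 : N + 2 - 1 = N + 1 := by omega
    rw [e1] at hcardSU hphr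
    rw [Finset.prod_range_succ] at hcardSU
    set M := (p ^ f) ^ ((N + 2) * (N + 1) / 2) * ∏ i ∈ Finset.range N, ph (p ^ f) (i + 1) with hM
    have hSM : Nat.card (SU (N + 2) F (p ^ f)) = M * ph (p ^ f) (N + 1) := by rw [hcardSU, hM]; ring
    have hrM : ¬ r ∣ M := by
      rw [hM, hr'.dvd_mul]
      rintro (h | h)
      · exact not_dvd_q ho (by omega) (hr'.dvd_of_dvd_pow h)
      · refine not_dvd_prod hr' (fun i hi h2 => ?_) h
        have h3 := neg_pow_of_dvd hq1 h2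
        have h4 := orderOf_dvd_of_pow_eq_one h3
        rw [ho] at h4
        have := Nat.le_of_dvd (by omega) h4
        omega
    have h1 : r ∣ Nat.card (SU (N + 2) F (p ^ f)) := by
      rw [hSM]
      exact Dvd.dvd.mul_left hphr _
    obtain ⟨X, hX⟩ := exists_prime_orderOf_dvd_card' r h1
    have hX1 : X ≠ 1 := by
      rintro rfl
      rw [orderOf_one] at hX
      exact hr'.one_lt.ne hX
    have hp1 := not_p_dvd hp hf hF hn ho hX
    have hrX : r ∣ Nat.card ↥(Subgroup.centralizer ({X} : Set (SU (N + 2) F (p ^ f)))) := by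
      have h2 : orderOf (⟨X, Subgroup.mem_centralizer_singleton_iff.2 rfl⟩ :
          ↥(Subgroup.centralizer ({X} : Set (SU (N + 2) F (p ^ f))))) = r := by rw [Subgroup.orderOf_mk, hX]
      exact h2 ▸ orderOf_dvd_natCard _
    refine ⟨_, mem_co X, ?_, hp1⟩
    have h2 := one_su hp hf hF hn hco ho hX1 hrX hp1
    rw [e1] at h2
    set c := Nat.card ↥(Subgroup.centralizer ({X} : Set (SU (N + 2) F (p ^ f)))) with hc
    have hc0 : c ≠ 0 := Nat.card_pos.ne'
    rw [← h2, ← mul_assoc, mul_right_comm] at hSM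
    have hrq : ¬ r ∣ M * (p ^ f + 1) := by
      rw [hr'.dvd_mul]
      rintro (h | h)
      · exact hrM h
      · exact not_dvd_q1 ho (by omega) h
    have hMq0 : M * (p ^ f + 1) ≠ 0 := fun h0 => hrq (h0 ▸ dvd_zero r)
    rw [hSM, Nat.factorization_mul hMq0 hc0, Finsupp.add_apply, Nat.factorization_eq_zero_of_not_dvd hrq, zero_add]
    exact Nat.ordProj_dvd c r
  · rintro c ⟨g, hg⟩ hc hrc hd
    have hg1 := hone c hc g hg
    simp only at hg
    subst hg
    obtain ⟨m, k, -, -, -, hlt⟩ := hle g hg1 hrc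
    have h2 := (hp.pow_dvd_iff_le_factorization Nat.card_pos.ne').1 hd
    omega
  · rintro c ⟨g, hg⟩ hc hrc hpc
    have hg1 := hone c hc g hg
    simp only at hg
    subst hg
    right
    rintro c' ⟨g', hg'⟩ hrc' hd hv
    simp only at hg'
    subst hg'
    obtain ⟨m, k, hk, hkm, h, hlt⟩ := hle g hg1 hrc
    have hg'1 : g' ≠ 1 := by
      rintro rfl
      rw [Subgroup.centralizer_eq_top_iff_subset.2 (by simp), Subgroup.card_top] at hv
      omega
    obtain ⟨m', k', hk', hkm', h', -⟩ := hle g' hg'1 hrc'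
    rw [fac_of hp hf (by omega) h, fac_of hp hf (by omega) h'] at hv
    have h1 := two_mul_exp hkm
    have h2 := two_mul_exp hkm'
    have h3 := Nat.eq_of_mul_eq_mul_left (by omega : 0 < f) hv
    rw [← h3, h2] at h1
    have h4 := Nat.eq_of_mul_eq_mul_left (by omega : 0 < n) h1
    have hm : m ≠ 0 := by rintro rfl; omega
    have hm' : m' ≠ 0 := by rintro rfl; omega
    have h5 : m = m' := by omega
    subst h5
    have h6 : k = k' := Nat.eq_of_mul_eq_mul_right (by omega : 0 < m) (hkm.trans hkm'.symm)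
    subst h6
    exact Nat.eq_of_mul_eq_mul_right (Nat.succ_pos _) (h'.trans h.symm)

/-! ### the central quotient -/

theorem exists_iso_pr {q : ℕ} (hF : Fintype.card F = q ^ 2) (hn : 3 ≤ n) (hco : Nat.Coprime n (q + 1)) :
    Nonempty (SU n F q ≃* PSU n F q) := by
  refine ⟨MulEquiv.ofBijective (pr n F q) ⟨?_, pr_surjective⟩⟩
  rw [injective_iff_map_eq_one]
  intro g hg
  rw [pr_eq_one_iff, center_bot hF hn hco, Subgroup.mem_bot] at hg
  exact hg

theorem latW_congr {S : Type*} [Group S] {T : Type*} [Group T] (e : S ≃* T) {p r : ℕ} (h : LatW S p r) :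
    LatW T p r := by
  have h1 := co_congr e
  have h2 := Nat.card_congr e.toEquiv
  obtain ⟨a, b, c, d⟩ := h
  rw [h1] at a b c d
  rw [h2] at b c d
  exact ⟨a, b, c, d⟩

include hp hf hF hn hco ho in
theorem one_psu {c : ℕ} (hc : c ∈ Co (PSU n F (p ^ f))) (hcS : c ≠ Nat.card (PSU n F (p ^ f))) (hrc : r ∣ c)
    (hpc : ¬ p ∣ c) : c * (p ^ f + 1) = (((p ^ f : ℕ) : ℤ) ^ n - (-1) ^ n).natAbs := by
  obtain ⟨e⟩ := exists_iso_pr hF hn hco
  rw [← co_congr e] at hc
  rw [← Nat.card_congr e.toEquiv] at hcS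
  obtain ⟨g, hg⟩ := hc
  simp only at hg
  subst hg
  have hg1 : g ≠ 1 := by
    rintro rfl
    apply hcS
    rw [Subgroup.centralizer_eq_top_iff_subset.2 (by simp), Subgroup.card_top]
  rw [one_su hp hf hF hn hco ho hg1 hrc hpc, ph_natAbs (Nat.one_le_pow _ _ hp.pos) (by omega)]

end Cfsg.Agent.H157.CS

namespace Cfsg.Agent.H157.CS

universe v

open Cfsg Cfsg.Agent.H948.UBase Cfsg.Agent.LieClassical.HermBasic Cfsg.Agent.H157.CS.Num
open Cfsg.Agent.H948.UProd (ph card_SU)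
open Cfsg.Agent.H370.AAM (Co mem_co)
open Cfsg.Agent.H431.CS (LatW Lat co_congr)

/-- **The lattice for `PSU_n(q)`, `ord_r (-q) = n`, `gcd(n, q + 1) = 1`.** -/
theorem lat_psu_top {F : Type v} [Field F] [Fintype F] {n p f r : ℕ} (hp : p.Prime) (hf : 1 ≤ f)
    (hF : Fintype.card F = (p ^ f) ^ 2) (hn : 3 ≤ n) (hr : r.Prime) (ho : orderOf (-((p ^ f : ℕ) : ZMod r)) = n)
    (hco : Nat.gcd n (p ^ f + 1) = 1) :
    Lat (PSU n F (p ^ f)) p r ((((p ^ f : ℕ) : ℤ) ^ n - (-1) ^ n).natAbs / (p ^ f + 1)) := by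
  have := Fact.mk hr
  obtain ⟨e⟩ := exists_iso_pr hF hn hco
  have hW : LatW (PSU n F (p ^ f)) p r := latW_congr e (latW_su hp hf hF hn hco ho)
  have hq1 : 1 ≤ p ^ f := Nat.one_le_pow _ _ hp.pos
  have hpS : p ∣ Nat.card (PSU n F (p ^ f)) := by
    rw [← Nat.card_congr e.toEquiv, card_SU (n := n) hF (by omega)]
    refine Dvd.dvd.mul_right (dvd_pow (dvd_pow_self p (by omega)) ?_) _
    have := tri n
    have h2 : 0 < n * (n - 1) := Nat.mul_pos (by omega) (by omega)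
    omega
  have hrS : r ∣ Nat.card (PSU n F (p ^ f)) := by
    rw [← Nat.card_congr e.toEquiv, card_SU (n := n) hF (by omega)]
    refine Dvd.dvd.mul_left ?_ _
    have hphr : r ∣ ph (p ^ f) (n - 1) := by
      have h1 : (-((p ^ f : ℕ) : ZMod r)) ^ n = 1 := by rw [← ho]; exact pow_orderOf_eq_one _
      have h2 : ((((p ^ f : ℕ) : ℤ) ^ n - (-1) ^ n : ℤ) : ZMod r) = 0 := by
        push_cast
        have h3 : (-((p ^ f : ℕ) : ZMod r)) ^ n = (-1) ^ n * ((p ^ f : ℕ) : ZMod r) ^ n := by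
          rw [← mul_pow, neg_one_mul]
        rw [h3] at h1
        have h4 : ((-1 : ZMod r) ^ n) * (-1) ^ n = 1 := by rw [← mul_pow]; simp
        push_cast at h1
        linear_combination ((-1 : ZMod r) ^ n) * h1 - (((p : ZMod r) ^ f) ^ n) * h4
      rw [ZMod.intCast_zmod_eq_zero_iff_dvd] at h2
      rw [ph_natAbs hq1 (by omega)]
      exact Int.natCast_dvd.1 h2
    have h1 := Finset.dvd_prod_of_mem (fun i => ph (p ^ f) (i + 1)) (Finset.mem_range.2 (by omega : n - 2 < n - 1))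
    refine dvd_trans ?_ h1
    rwa [show n - 2 + 1 = n - 1 by omega]
  have hone : ∀ c ∈ Co (PSU n F (p ^ f)), c ≠ Nat.card (PSU n F (p ^ f)) → r ∣ c → ¬ p ∣ c →
      c = (((p ^ f : ℕ) : ℤ) ^ n - (-1) ^ n).natAbs / (p ^ f + 1) := by
    intro c h1 h2 h3 h4
    rw [← one_psu hp hf hF hn hco ho h1 h2 h3 h4, Nat.mul_div_cancel _ (Nat.succ_pos _)]
  obtain ⟨c, hc, hc1, hc2⟩ := hW.h2
  have hfin : Finite (PSU n F (p ^ f)) := Finite.of_equiv _ e.toEquiv
  have hrc : r ∣ c := by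
    refine dvd_trans (dvd_pow_self r ?_) hc1
    exact (hr.factorization_pos_of_dvd Nat.card_pos.ne' hrS).ne'
  have hcm := hone c hc (fun h => hc2 (h ▸ hpS)) hrc hc2
  rw [hcm] at hc hc1 hc2
  exact ⟨hrS, hW.h0, hc, hc1, hc2, hone, hW.h3, hW.h4⟩

/-- **The lattice for `PSU_n(2)`, `ord_r (-2) = n`, `3 ∤ n`.** -/
theorem lat_psu_two {F : Type v} [Field F] [Fintype F] {n r : ℕ} (hF : Fintype.card F = 4) (hn : 3 ≤ n)
    (h3 : ¬ 3 ∣ n) (hr : r.Prime) (ho : orderOf (-(2 : ZMod r)) = n) :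
    Lat (PSU n F 2) 2 r (((2 : ℤ) ^ n - (-1) ^ n).natAbs / 3) := by
  have hco : Nat.gcd n (2 ^ 1 + 1) = 1 := ((Nat.Prime.coprime_iff_not_dvd Nat.prime_three).2 h3).symm
  have h := lat_psu_top (F := F) (f := 1) Nat.prime_two le_rfl (by rw [hF]; norm_num) hn hr
    (by rw [← ho]; norm_num) hco
  simpa using h

end Cfsg.Agent.H157.CS
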