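import Cfsg.Agent.H157.CS.Red
import Cfsg.Agent.H446.CS.Eig
import Cfsg.Agent.H431.CS.Defs
import Cfsg.Agent.ClassicalGeometry.GUBasic
import Cfsg.Agent.S0279

/-!
# S3677, `PSU_n(q)`, `gcd(n, q + 1) = 1`: the orders of the centralizers of the elements commuting with an element of order
`r`, `ord_r (-q) = n` (helper157)
-/

set_option autoImplicit false
set_option linter.unusedSectionVars false

namespace Cfsg.Agent.H157.CS

open Cfsg Cfsg.Agent.H948.UBase Cfsg.Agent.LieClassical.HermBasic Module Polynomial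
open Cfsg.Agent.LieClassical.HermSiegel (act act_one act_mul act_add act_smul act_inv_act act_act_inv herm_act ext_act)
open Cfsg.Agent.ClassicalGeometry.PSUAutBasic (pr pr_eq_one_iff pr_surjective exists_scalar_of_mem_center
  mem_center_of_act)
open Cfsg.Agent.H364.Unitary (sg mK mK_comm exists_eig_full mu_eq)
open Cfsg.Agent.H446.CS (cc up up_injective up_aeval aeval_iter classify)

universe u

variable {F : Type u} [Field F] [Fintype F] {n q r : ℕ}

/-- **The order of the group of isometries commuting with `g`.** -/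
theorem struct' (hF : Fintype.card F = q ^ 2) (hn : 2 ≤ n) [hr : Fact r.Prime]
    (ho : orderOf (-(q : ZMod r)) = n) {X g : SU n F q} (hX : orderOf X = r) (hc : Commute X g) :
    ∃ m k : ℕ, 0 < k ∧ k * m = n ∧ Nat.card ↥(IG (B0 hF n) (aE g)) = cc q m k ∧
      (k = 1 → g ∈ Subgroup.center (SU n F q)) := by
  have hrF : (r : F) ≠ 0 := cast_ne_zero hF hr.out (not_dvd_q ho hn)
  obtain ⟨z, v, hz, hE⟩ := exists_eig_full (AlgebraicClosure F) hF hr.out hrF X hX ho.ge
  obtain ⟨mu, hmu⟩ := hE.exists_mu (mK_comm (AlgebraicClosure F) hc)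
  obtain ⟨h1, -, -, h4⟩ := mu_eq (AlgebraicClosure F) hF hr.out (by omega : 0 < n)
    (by rw [← ho]; exact pow_orderOf_eq_one _) hz hE hmu
  set a := mu ⟨0, by omega⟩ with ha
  have haL : aL g = Matrix.toLin' (H364.Unitary.mat g) := by
    apply LinearMap.ext
    intro w
    rw [Matrix.toLin'_apply]
    rfl
  have hk : ∀ P : F[X], aeval a P = 0 → aeval ((a ^ q)⁻¹) P = 0 → aeval (aL g) P = 0 := by
    intro P hP1 hP2
    apply LinearMap.ext
    intro w
    apply up_injective (AlgebraicClosure F)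
    have h5 : up (AlgebraicClosure F) w = ∑ i, (hE.basis.repr (up (AlgebraicClosure F) w) i) • v i := by
      conv_lhs => rw [← hE.basis.sum_repr (up (AlgebraicClosure F) w)]
      simp only [hE.basis_apply]
    rw [haL, up_aeval (AlgebraicClosure F) g hmu P h5]
    have h0 : up (AlgebraicClosure F) ((0 : (Fin n → F) →ₗ[F] (Fin n → F)) w) = 0 := by funext i; simp [up]
    rw [h0]
    apply Finset.sum_eq_zero
    intro i _
    have h6 := aeval_iter (AlgebraicClosure F) hF hP1 hP2 (i : ℕ)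
    rw [h1 i, h6, zero_mul, zero_smul]
  have hB := isHerm_B0 (n := n) hF
  have hV : finrank F (Fin n → F) = n := by rw [finrank_fintype_fun_eq_card, Fintype.card_fin]
  have hnt : Nontrivial (Fin n → F) := Module.nontrivial_of_finrank_pos (R := F) (by omega)
  obtain ⟨m, k, hk0, hkm, hcard, P, hP0, hPk, hP1, hP2⟩ := classify hF (fun c => cj_apply hF c) (B0 hF n)
    (fun u v => hB.symm.eq u v |>.symm) hB.sep (aE g) (isometry_aE hF g)
    (Algebra.IsIntegral.isIntegral (R := F) a) h4 hk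
  refine ⟨m, k, hk0, hkm.trans hV, hcard, fun hk1 => ?_⟩
  subst hk1
  have h6 := hk P hP1 hP2
  have hd1 : (minpoly F (aL g)).natDegree ≤ 1 := by
    have h7 : minpoly F (aL g) ∣ P := minpoly.dvd F _ h6
    exact (natDegree_le_of_dvd h7 hP0).trans hPk
  have hint : IsIntegral F (aL g) := Algebra.IsIntegral.isIntegral _
  have h8 : (minpoly F (aL g)).natDegree = 1 := le_antisymm hd1 (minpoly.natDegree_pos hint)
  obtain ⟨c, hc'⟩ := minpoly.natDegree_eq_one_iff.1 h8
  refine mem_center_of_act (c := c) fun v => ?_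
  have h9 := LinearMap.congr_fun hc' v
  rw [Module.algebraMap_end_apply] at h9
  exact h9.symm

/-! ### isometries and elements of `SU` -/

/-- **`C_{U}(g) = C_{SU}(g) × μ_{q+1}`** if `gcd(n, q + 1) = 1`. -/
theorem card_IG (hF : Fintype.card F = q ^ 2) (hco : Nat.Coprime n (q + 1)) (g : SU n F q) :
    Nat.card ↥(IG (B0 hF n) (aE g)) =
      Nat.card ↥(Subgroup.centralizer ({g} : Set (SU n F q))) * (q + 1) := by
  rw [← Cfsg.Agent.ClassicalGeometry.GUBasic.card_rootsOfUnity_eq hF, ← Nat.card_prod]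
  symm
  have hroot : ∀ ζ : rootsOfUnity (q + 1) F, ((ζ : Fˣ) : F) ^ (q + 1) = 1 := fun ζ => by
    have := (mem_rootsOfUnity' (q + 1) (ζ : Fˣ)).1 ζ.2
    exact this
  have hmem : ∀ (h : ↥(Subgroup.centralizer ({g} : Set (SU n F q)))) (ζ : rootsOfUnity (q + 1) F),
      (LinearEquiv.smulOfUnit (ζ : Fˣ) : (Fin n → F) ≃ₗ[F] (Fin n → F)) * aE (h : SU n F q) ∈
        IG (B0 hF n) (aE g) := by
    intro h ζ
    constructor
    · intro u v
      change B0 hF n (((ζ : Fˣ) : F) • aE (h : SU n F q) u) (((ζ : Fˣ) : F) • aE (h : SU n F q) v) = _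
      rw [LinearMap.map_smulₛₗ (B0 hF n), LinearMap.smul_apply, LinearMap.map_smul, isometry_aE, cj_apply, smul_smul,
        ← pow_succ, hroot, one_smul]
    · intro v
      change ((ζ : Fˣ) : F) • act (h : SU n F q) (act g v) = act g (((ζ : Fˣ) : F) • act (h : SU n F q) v)
      rw [act_smul, ← act_mul, ← act_mul, Subgroup.mem_centralizer_singleton_iff.1 h.2]
  have hdet : ∀ (h : SU n F q) (c : F), LinearMap.det (c • aL h) = c ^ n := by
    intro h c
    have h1 : aL h = Matrix.toLin' (H364.Unitary.mat h) := by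
      apply LinearMap.ext
      intro w
      rw [Matrix.toLin'_apply]
      rfl
    rw [LinearMap.det_smul, finrank_fintype_fun_eq_card, Fintype.card_fin, h1, LinearMap.det_toLin',
      H364.Unitary.mat_det, mul_one]
  refine Nat.card_congr (Equiv.ofBijective (fun x => ⟨_, hmem x.1 x.2⟩) ⟨?_, ?_⟩)
  · rintro ⟨h, ζ⟩ ⟨h', ζ'⟩ he
    have he1 : (LinearEquiv.smulOfUnit (ζ : Fˣ) : (Fin n → F) ≃ₗ[F] (Fin n → F)) * aE (h : SU n F q) =
        (LinearEquiv.smulOfUnit (ζ' : Fˣ) : (Fin n → F) ≃ₗ[F] (Fin n → F)) * aE (h' : SU n F q) :=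
      congrArg Subtype.val he
    have he2 : ((ζ : Fˣ) : F) • aL (h : SU n F q) = ((ζ' : Fˣ) : F) • aL (h' : SU n F q) :=
      LinearMap.ext fun v => LinearEquiv.congr_fun he1 v
    have he3 := congrArg LinearMap.det he2
    rw [hdet, hdet] at he3
    have he4 : (ζ * ζ'⁻¹) ^ n = 1 := by
      apply Subtype.ext
      apply Units.ext
      have h0 : ((ζ' : Fˣ) : F) ≠ 0 := Units.ne_zero _
      change (((ζ : Fˣ) * (ζ' : Fˣ)⁻¹ : Fˣ) : F) ^ n = 1
      rw [Units.val_mul, Units.val_inv_eq_inv_val, mul_pow, inv_pow, he3, mul_inv_cancel₀ (pow_ne_zero _ h0)]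
    have he5 : (ζ * ζ'⁻¹) ^ (q + 1) = 1 := by
      apply Subtype.ext
      exact (mem_rootsOfUnity (q + 1) _).1 (ζ * ζ'⁻¹).2
    have he6 : ζ = ζ' := by
      have h7 : orderOf (ζ * ζ'⁻¹) ∣ 1 := by
        have h8 := Nat.dvd_gcd (orderOf_dvd_of_pow_eq_one he4) (orderOf_dvd_of_pow_eq_one he5)
        rwa [hco] at h8
      exact mul_inv_eq_one.1 (orderOf_eq_one_iff.1 (Nat.dvd_one.1 h7))
    subst he6
    have he7 : aE (h : SU n F q) = aE (h' : SU n F q) := mul_left_cancel he1
    exact Prod.ext (Subtype.ext (aE_injective he7)) rfl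
  · rintro ⟨T, hT⟩
    have hB := isHerm_B0 (n := n) hF
    have hn1 := det_norm hB (T := (T : (Fin n → F) →ₗ[F] _)) (fun u v => hT.1 u v)
    set δ : Fˣ := LinearEquiv.det T with hδ
    have hδv : (δ : F) = LinearMap.det (T : (Fin n → F) →ₗ[F] _) := LinearEquiv.coe_det T
    have hδ1 : δ ^ (q + 1) = 1 := by
      apply Units.ext
      rw [Units.val_pow_eq_pow_val, hδv, hn1]
      rfl
    obtain ⟨b, hb⟩ : ∃ b : ℕ, n * b ≡ 1 [MOD (q + 1)] := by
      have h2 : 1 < q + 1 := by have := two_le hF; omega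
      exact Nat.exists_mul_mod_eq_one_of_coprime hco h2 |>.imp fun b hb => by
        rw [Nat.ModEq, hb.2, Nat.mod_eq_of_lt h2]
    have hζ : δ ^ b ∈ rootsOfUnity (q + 1) F := by
      rw [mem_rootsOfUnity, ← pow_mul, mul_comm, pow_mul, hδ1, one_pow]
    have hζn : (δ ^ b) ^ n = δ := by
      rw [← pow_mul, mul_comm]
      have h3 : δ ^ (n * b) = δ ^ 1 := pow_eq_pow_iff_modEq.2 (hb.of_dvd (orderOf_dvd_of_pow_eq_one hδ1))
      rw [h3, pow_one]
    set c : F := (((δ ^ b)⁻¹ : Fˣ) : F) with hcd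
    have hc1 : c * ((δ ^ b : Fˣ) : F) = 1 := by rw [hcd, ← Units.val_mul, inv_mul_cancel]; rfl
    have hcn : c ^ (q + 1) = 1 := by
      rw [hcd, ← Units.val_pow_eq_pow_val, inv_pow, (mem_rootsOfUnity (q + 1) _).1 hζ, inv_one]
      rfl
    have hTi : Iso (B0 hF n) (c • (T : (Fin n → F) →ₗ[F] _)) := by
      intro u v
      change B0 hF n (c • T u) (c • T v) = _
      rw [LinearMap.map_smulₛₗ (B0 hF n), LinearMap.smul_apply, LinearMap.map_smul, cj_apply, smul_smul,
        ← pow_succ, hcn, one_smul]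
      exact hT.1 u v
    have hTd : LinearMap.det (c • (T : (Fin n → F) →ₗ[F] (Fin n → F))) = 1 := by
      rw [LinearMap.det_smul, finrank_fintype_fun_eq_card, Fintype.card_fin, ← hδv, hcd]
      rw [← Units.val_pow_eq_pow_val, ← Units.val_mul, inv_pow, hζn, inv_mul_cancel]
      rfl
    have hact := act_toSU (LinearEquiv.refl F (Fin n → F)) (B := B0 hF n) (fun x y => rfl) _ hTi hTd
    set h := toSU (LinearEquiv.refl F (Fin n → F)) (B := B0 hF n) (fun x y => rfl) _ hTi hTd with hh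
    have hact' : ∀ w, act h w = c • T w := fun w => hact w
    have hcen : h ∈ Subgroup.centralizer ({g} : Set (SU n F q)) := by
      rw [Subgroup.mem_centralizer_singleton_iff]
      apply ext_act
      intro v
      rw [act_mul, act_mul, hact', hact', act_smul]
      have := hT.2 v
      rw [aE_apply, aE_apply] at this
      rw [this]
    refine ⟨(⟨h, hcen⟩, ⟨δ ^ b, hζ⟩), Subtype.ext (LinearEquiv.ext fun v => ?_)⟩
    change ((δ ^ b : Fˣ) : F) • act h v = T v
    rw [hact', smul_smul, mul_comm, hc1, one_smul]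

end Cfsg.Agent.H157.CS
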